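import Mathlib
import Cfsg.Prelude.Def_FusionComponents

set_option autoImplicit false
open Cfsg Cfsg.FusionSystem

namespace Cfsg.Agent.Lib.Helper80.FT

universe u v w
variable {Γ : Type u} [Group Γ] {Ω' : Type v} [Group Ω']

/-- two systems over propositionally equal subgroups with the same maps -/
def Same {Ω : Type u} [Group Ω] {T T' : Subgroup Ω} (E : FusionSystem T) (E' : FusionSystem T') : Prop :=
  T = T' ∧ ∀ P : Subgroup Ω, E.Hom P = E'.Hom P

/-- push of a single hom along the injective `θ` -/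
noncomputable def pushHom (θ : Γ →* Ω') (hθ : Function.Injective θ) {P : Subgroup Γ} (φ : P →* Γ) :
    ↥(P.map θ) →* Ω' :=
  θ.comp (φ.comp (P.equivMapOfInjective θ hθ).symm.toMonoidHom)

/-- the maps of the pushed system -/
def pushSet (θ : Γ →* Ω') {T : Subgroup Γ} (E : FusionSystem T) (Q : Subgroup Ω') : Set (Q →* Ω') :=
  {ψ | ∃ (P : Subgroup Γ) (φ : P →* Γ), φ ∈ E.Hom P ∧ P.map θ = Q ∧
    ∀ (x : P) (hx : θ x ∈ Q), ψ ⟨θ x, hx⟩ = θ (φ x)}

/-- the maps of the pulled-back system -/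
def pullSet (θ : Γ →* Ω') (hθ : Function.Injective θ) {T' : Subgroup Ω'} (E' : FusionSystem T')
    (P : Subgroup Γ) : Set (P →* Γ) :=
  {φ | pushHom θ hθ φ ∈ E'.Hom (P.map θ)}

/-- the isomorphism `Aut P ≃ Aut (θ P)` -/
noncomputable def autEquiv (θ : Γ →* Ω') (hθ : Function.Injective θ) (P : Subgroup Γ) :
    MulAut P ≃* MulAut ↥(P.map θ) :=
  MulAut.congr (P.equivMapOfInjective θ hθ)

end Cfsg.Agent.Lib.Helper80.FT
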