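import Mathlib
import Cfsg.Prelude.Def_FusionComponents
import Cfsg.Agent.Lib.Helper80.FT.Core0

set_option autoImplicit false
open Cfsg Cfsg.FusionSystem

namespace Cfsg.Agent.Lib.Helper80.FT

universe u v w
variable {Γ : Type u} [Group Γ] {Ω' : Type v} [Group Ω']

theorem pushHom_apply (θ : Γ →* Ω') (hθ : Function.Injective θ) {P : Subgroup Γ} (φ : P →* Γ) (x : P)
    (hx : θ x ∈ P.map θ) : pushHom θ hθ φ ⟨θ x, hx⟩ = θ (φ x) := by
  have h1 : (⟨θ x, hx⟩ : ↥(P.map θ)) = P.equivMapOfInjective θ hθ x := by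
    apply Subtype.ext
    simp
  unfold pushHom
  simp only [MonoidHom.comp_apply, MulEquiv.coe_toMonoidHom]
  rw [h1, MulEquiv.symm_apply_apply]

theorem pushHom_injective (θ : Γ →* Ω') (hθ : Function.Injective θ) {P : Subgroup Γ} {φ φ' : P →* Γ}
    (h : pushHom θ hθ φ = pushHom θ hθ φ') : φ = φ' := by
  ext x
  have hx : θ x ∈ P.map θ := Subgroup.mem_map_of_mem θ x.2
  have h1 := pushHom_apply θ hθ φ x hx
  have h2 := pushHom_apply θ hθ φ' x hx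
  rw [h] at h1
  exact hθ (h1.symm.trans h2)

theorem pushHom_ext (θ : Γ →* Ω') (hθ : Function.Injective θ) {P : Subgroup Γ} (φ : P →* Γ)
    (ψ : ↥(P.map θ) →* Ω') (h : ∀ (x : P) (hx : θ x ∈ P.map θ), ψ ⟨θ x, hx⟩ = θ (φ x)) :
    ψ = pushHom θ hθ φ := by
  ext ⟨y, hy⟩
  obtain ⟨x, hx, rfl⟩ := hy
  have h1 := h ⟨x, hx⟩ (Subgroup.mem_map_of_mem θ hx)
  have h2 := pushHom_apply θ hθ φ ⟨x, hx⟩ (Subgroup.mem_map_of_mem θ hx)
  exact h1.trans h2.symm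

theorem exists_pushHom_eq (θ : Γ →* Ω') (hθ : Function.Injective θ) {P : Subgroup Γ}
    (ψ : ↥(P.map θ) →* Ω') (h : ∀ y, ψ y ∈ θ.range) : ∃ φ : P →* Γ, pushHom θ hθ φ = ψ := by
  let e : Γ ≃* θ.range := MonoidHom.ofInjective hθ
  let φ : P →* Γ := e.symm.toMonoidHom.comp
    ((ψ.codRestrict θ.range h).comp (P.equivMapOfInjective θ hθ).toMonoidHom)
  refine ⟨φ, (pushHom_ext θ hθ φ ψ ?_).symm⟩
  intro x hx
  have h1 : (⟨θ x, hx⟩ : ↥(P.map θ)) = P.equivMapOfInjective θ hθ x := by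
    apply Subtype.ext
    simp
  have h2 : θ (φ x) = ((e (φ x) : θ.range) : Ω') := rfl
  rw [h2]
  simp only [φ, MonoidHom.comp_apply, MulEquiv.coe_toMonoidHom, MulEquiv.apply_symm_apply]
  rw [h1]
  rfl

theorem pushHom_range (θ : Γ →* Ω') (hθ : Function.Injective θ) {P : Subgroup Γ} (φ : P →* Γ) :
    (pushHom θ hθ φ).range = φ.range.map θ := by
  ext y
  constructor
  · rintro ⟨⟨z, hz⟩, rfl⟩
    obtain ⟨x, hx, rfl⟩ := hz
    rw [pushHom_apply θ hθ φ ⟨x, hx⟩ (Subgroup.mem_map_of_mem θ hx)]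
    exact Subgroup.mem_map_of_mem θ ⟨_, rfl⟩
  · rintro ⟨_, ⟨x, rfl⟩, rfl⟩
    exact ⟨⟨θ x, Subgroup.mem_map_of_mem θ x.2⟩, pushHom_apply θ hθ φ x _⟩

theorem exists_map_eq (θ : Γ →* Ω') {Q : Subgroup Ω'} (h : Q ≤ θ.range) : ∃ P : Subgroup Γ, P.map θ = Q :=
  ⟨Q.comap θ, by rw [Subgroup.map_comap_eq, inf_eq_right.2 h]⟩

end Cfsg.Agent.Lib.Helper80.FT
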