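import Mathlib
import Cfsg.Prelude.Def_FusionComponents
import Cfsg.Agent.Lib.Helper80.FT.Core0
import Cfsg.Agent.Lib.Helper80.FT.B2

set_option autoImplicit false
open Cfsg Cfsg.FusionSystem

namespace Cfsg.Agent.Lib.Helper80.FT

universe u v w
variable {Γ : Type u} [Group Γ] {Ω' : Type v} [Group Ω']

theorem push_le_of_mem (θ : Γ →* Ω') (hθ : Function.Injective θ) {T : Subgroup Γ} (E : FusionSystem T)
    {P : Subgroup Ω'} {φ : P →* Ω'} (h : φ ∈ pushSet θ E P) : P ≤ T.map θ ∧ ∀ x : P, φ x ∈ T.map θ := by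
  obtain ⟨P₀, φ₀, hφ₀, rfl, hc⟩ := h
  obtain ⟨h1, h2⟩ := E.le_of_mem hφ₀
  refine ⟨Subgroup.map_mono h1, ?_⟩
  rintro ⟨y, hy⟩
  obtain ⟨x, hx, rfl⟩ := hy
  rw [hc ⟨x, hx⟩ (Subgroup.mem_map_of_mem θ hx)]
  exact Subgroup.mem_map_of_mem θ (h2 _)

theorem push_injective_of_mem (θ : Γ →* Ω') (hθ : Function.Injective θ) {T : Subgroup Γ} (E : FusionSystem T)
    {P : Subgroup Ω'} {φ : P →* Ω'} (h : φ ∈ pushSet θ E P) : Function.Injective φ := by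
  obtain ⟨P₀, φ₀, hφ₀, rfl, hc⟩ := h
  have hinj := E.injective_of_mem hφ₀
  rintro ⟨y, hy⟩ ⟨y', hy'⟩ hyy
  obtain ⟨x, hx, rfl⟩ := hy
  obtain ⟨x', hx', rfl⟩ := hy'
  rw [hc ⟨x, hx⟩ (Subgroup.mem_map_of_mem θ hx), hc ⟨x', hx'⟩ (Subgroup.mem_map_of_mem θ hx')] at hyy
  have := hinj (hθ hyy)
  apply Subtype.ext
  show θ x = θ x'
  rw [show x = x' from congrArg Subtype.val this]

end Cfsg.Agent.Lib.Helper80.FT
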