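import Mathlib
import Cfsg.Prelude.Def_FusionComponents
import Cfsg.Agent.Lib.Helper80.FT.Core0
import Cfsg.Agent.Lib.Helper80.FT.B2

set_option autoImplicit false
open Cfsg Cfsg.FusionSystem

namespace Cfsg.Agent.Lib.Helper80.FT

universe u v w
variable {Γ : Type u} [Group Γ] {Ω' : Type v} [Group Ω']

theorem push_conj_mem (θ : Γ →* Ω') (hθ : Function.Injective θ) {T : Subgroup Γ} (E : FusionSystem T)
    {P : Subgroup Ω'} {g : Ω'} (hP : P ≤ T.map θ) (hg : g ∈ T.map θ) : conjHom P g ∈ pushSet θ E P := by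
  obtain ⟨g₀, hg₀, rfl⟩ := hg
  have hPr : P ≤ θ.range := hP.trans (Subgroup.map_le_range θ T)
  obtain ⟨P₀, rfl⟩ := exists_map_eq θ hPr
  have hP₀ : P₀ ≤ T := by
    intro x hx
    obtain ⟨t, ht, htx⟩ := hP (Subgroup.mem_map_of_mem θ hx)
    rw [← hθ htx]; exact ht
  refine ⟨P₀, conjHom P₀ g₀, E.conj_mem hP₀ hg₀, rfl, ?_⟩
  intro x hx
  simp [conjHom]

end Cfsg.Agent.Lib.Helper80.FT
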