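import Mathlib
import Cfsg.Prelude.Def_FusionComponents
import Cfsg.Agent.Lib.Helper80.FT.Core0
import Cfsg.Agent.Lib.Helper80.FT.B2

set_option autoImplicit false
open Cfsg Cfsg.FusionSystem

namespace Cfsg.Agent.Lib.Helper80.FT

universe u v w
variable {Γ : Type u} [Group Γ] {Ω' : Type v} [Group Ω']

theorem push_comp_mem (θ : Γ →* Ω') (hθ : Function.Injective θ) {T : Subgroup Γ} (E : FusionSystem T)
    {P Q : Subgroup Ω'} {φ : P →* Ω'} {ψ : Q →* Ω'} (hφ : φ ∈ pushSet θ E P) (hψ : ψ ∈ pushSet θ E Q)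
    (h : ∀ x : P, φ x ∈ Q) : ψ.comp (φ.codRestrict Q h) ∈ pushSet θ E P := by
  obtain ⟨P₀, φ₀, hφ₀, rfl, hc⟩ := hφ
  obtain ⟨Q₀, ψ₀, hψ₀, rfl, hd⟩ := hψ
  have h₀ : ∀ x : P₀, φ₀ x ∈ Q₀ := by
    intro x
    have h1 := h ⟨θ x, Subgroup.mem_map_of_mem θ x.2⟩
    rw [hc x (Subgroup.mem_map_of_mem θ x.2)] at h1
    obtain ⟨z, hz, hzx⟩ := h1
    rw [← hθ hzx]; exact hz
  refine ⟨P₀, ψ₀.comp (φ₀.codRestrict Q₀ h₀), E.comp_mem hφ₀ hψ₀ h₀, rfl, ?_⟩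
  intro x hx
  have h2 : (φ.codRestrict (Q₀.map θ) h) ⟨θ x, hx⟩
      = ⟨θ (φ₀ x), Subgroup.mem_map_of_mem θ (h₀ x)⟩ := by
    apply Subtype.ext
    exact hc x hx
  rw [MonoidHom.comp_apply, h2]
  exact hd ⟨φ₀ x, h₀ x⟩ _

end Cfsg.Agent.Lib.Helper80.FT
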