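import Mathlib
import Cfsg.Prelude.Def_FusionComponents
import Cfsg.Agent.Lib.Helper80.FT.Core0
import Cfsg.Agent.Lib.Helper80.FT.B2

set_option autoImplicit false
open Cfsg Cfsg.FusionSystem

namespace Cfsg.Agent.Lib.Helper80.FT

universe u v w
variable {Γ : Type u} [Group Γ] {Ω' : Type v} [Group Ω']

theorem F4_aux (θ : Γ →* Ω') (hθ : Function.Injective θ) {T : Subgroup Γ} (E : FusionSystem T)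
    {R₀ : Subgroup Γ} (ψ₀ : R₀ →* Γ) (hψ₀ : ψ₀ ∈ E.Hom R₀) (R : Subgroup Ω') (h : R₀.map θ = R) :
    ∃ ψ ∈ pushSet θ E R, ∀ (y : R₀) (hy : θ y ∈ R), ψ ⟨θ y, hy⟩ = θ (ψ₀ y) := by
  subst h
  refine ⟨pushHom θ hθ ψ₀, ⟨R₀, ψ₀, hψ₀, rfl, fun x hx => pushHom_apply θ hθ ψ₀ x hx⟩,
    fun y hy => pushHom_apply θ hθ ψ₀ y hy⟩

theorem push_inv_mem (θ : Γ →* Ω') (hθ : Function.Injective θ) {T : Subgroup Γ} (E : FusionSystem T)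
    {P : Subgroup Ω'} {φ : P →* Ω'} (hφ : φ ∈ pushSet θ E P) :
    ∃ ψ ∈ pushSet θ E φ.range, ∀ x : P, ψ ⟨φ x, ⟨x, rfl⟩⟩ = (x : Ω') := by
  obtain ⟨P₀, φ₀, hφ₀, rfl, hval⟩ := hφ
  obtain ⟨ψ₀, hψ₀, hinv⟩ := E.inv_mem hφ₀
  have hr : φ₀.range.map θ = φ.range := by
    ext z
    constructor
    · rintro ⟨_, ⟨x, rfl⟩, rfl⟩
      exact ⟨⟨θ x, Subgroup.mem_map_of_mem θ x.2⟩, hval x _⟩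
    · rintro ⟨⟨_, ⟨x, hx, rfl⟩⟩, rfl⟩
      exact ⟨φ₀ ⟨x, hx⟩, ⟨⟨x, hx⟩, rfl⟩, (hval ⟨x, hx⟩ _).symm⟩
  obtain ⟨ψ, hψ, hψv⟩ := F4_aux θ hθ E ψ₀ hψ₀ φ.range hr
  refine ⟨ψ, hψ, ?_⟩
  rintro ⟨_, ⟨x, hx, rfl⟩⟩
  have h1 := hval ⟨x, hx⟩ (Subgroup.mem_map_of_mem θ hx)
  have h2 : θ ((⟨φ₀ ⟨x, hx⟩, ⟨⟨x, hx⟩, rfl⟩⟩ : φ₀.range) : Γ) ∈ φ.range := by
    rw [← hr]; exact Subgroup.mem_map_of_mem θ ⟨⟨x, hx⟩, rfl⟩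
  have h3 := hψv ⟨φ₀ ⟨x, hx⟩, ⟨⟨x, hx⟩, rfl⟩⟩ h2
  rw [hinv ⟨x, hx⟩] at h3
  have h4 : (⟨φ ⟨θ x, Subgroup.mem_map_of_mem θ hx⟩, ⟨⟨θ x, Subgroup.mem_map_of_mem θ hx⟩, rfl⟩⟩ : φ.range)
      = ⟨θ ((⟨φ₀ ⟨x, hx⟩, ⟨⟨x, hx⟩, rfl⟩⟩ : φ₀.range) : Γ), h2⟩ := by
    apply Subtype.ext
    exact h1
  rw [h4, h3]

end Cfsg.Agent.Lib.Helper80.FT
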