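import Mathlib
import Cfsg.Prelude.Def_FusionComponents
import Cfsg.Agent.Lib.Helper80.FT.Core0
import Cfsg.Agent.Lib.Helper80.FT.B2

set_option autoImplicit false
open Cfsg Cfsg.FusionSystem

namespace Cfsg.Agent.Lib.Helper80.FT

universe u v w
variable {Γ : Type u} [Group Γ] {Ω' : Type v} [Group Ω']

theorem pull_le_of_mem (θ : Γ →* Ω') (hθ : Function.Injective θ) {T' : Subgroup Ω'} (E' : FusionSystem T')
    {P : Subgroup Γ} {φ : P →* Γ} (h : φ ∈ pullSet θ hθ E' P) : P ≤ T'.comap θ ∧ ∀ x : P, φ x ∈ T'.comap θ := by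
  have h1 := E'.le_of_mem (show pushHom θ hθ φ ∈ E'.Hom (P.map θ) from h)
  refine ⟨?_, ?_⟩
  · intro x hx
    exact Subgroup.mem_comap.2 (h1.1 (Subgroup.mem_map_of_mem θ hx))
  · intro x
    have h2 := h1.2 ⟨θ x, Subgroup.mem_map_of_mem θ x.2⟩
    rw [pushHom_apply] at h2
    exact Subgroup.mem_comap.2 h2

theorem pull_injective_of_mem (θ : Γ →* Ω') (hθ : Function.Injective θ) {T' : Subgroup Ω'} (E' : FusionSystem T')
    {P : Subgroup Γ} {φ : P →* Γ} (h : φ ∈ pullSet θ hθ E' P) : Function.Injective φ := by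
  have h1 := E'.injective_of_mem (show pushHom θ hθ φ ∈ E'.Hom (P.map θ) from h)
  intro x y hxy
  have hx : θ x ∈ P.map θ := Subgroup.mem_map_of_mem θ x.2
  have hy : θ y ∈ P.map θ := Subgroup.mem_map_of_mem θ y.2
  have h2 : pushHom θ hθ φ ⟨θ x, hx⟩ = pushHom θ hθ φ ⟨θ y, hy⟩ := by
    rw [pushHom_apply, pushHom_apply, hxy]
  have h3 := h1 h2
  have h4 : θ x = θ y := congrArg Subtype.val h3
  exact Subtype.ext (hθ h4)

end Cfsg.Agent.Lib.Helper80.FT
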