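import Mathlib
import Cfsg.Prelude.Def_FusionComponents
import Cfsg.Agent.Lib.Helper80.FT.Core0

set_option autoImplicit false
open Cfsg Cfsg.FusionSystem

namespace Cfsg.Agent.Lib.Helper80.FT

universe u v w
variable {Γ : Type u} [Group Γ] {Ω' : Type v} [Group Ω']

/-- casting a map of a system along an equality of sources -/
theorem hom_cast {Ω : Type u} [Group Ω] {T : Subgroup Ω} (E : FusionSystem T) {P Q : Subgroup Ω} (h : P = Q)
    {φ : P →* Ω} (hφ : φ ∈ E.Hom P) (ψ : Q →* Ω) (hψ : ∀ (x : Ω) (hP : x ∈ P) (hQ : x ∈ Q), ψ ⟨x, hQ⟩ = φ ⟨x, hP⟩) :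
    ψ ∈ E.Hom Q := by
  subst h
  have : ψ = φ := by
    ext ⟨x, hx⟩
    exact hψ x hx hx
  rw [this]
  exact hφ

theorem le_of_subsystem {Ω : Type u} [Group Ω] {T S : Subgroup Ω} {E : FusionSystem T} {F : FusionSystem S}
    (h : E.IsSubsystemOf F) : T ≤ S := by
  have h1 : conjHom T (1 : Ω) ∈ E.Hom T := E.conj_mem le_rfl (one_mem T)
  exact (F.le_of_mem (h T h1)).1

end Cfsg.Agent.Lib.Helper80.FT
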