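import Mathlib
import Cfsg.Prelude.Def_FusionComponents
import Cfsg.Agent.Lib.Helper80.FT.Core0
import Cfsg.Agent.Lib.Helper80.FT.B2
import Cfsg.Agent.Lib.Helper80.FT.B3

set_option autoImplicit false
open Cfsg Cfsg.FusionSystem

namespace Cfsg.Agent.Lib.Helper80.FT

universe u v w
variable {Γ : Type u} [Group Γ] {Ω' : Type v} [Group Ω']

theorem pull_conj_mem (θ : Γ →* Ω') (hθ : Function.Injective θ) {T' : Subgroup Ω'} (E' : FusionSystem T')
    {P : Subgroup Γ} {g : Γ} (hP : P ≤ T'.comap θ) (hg : g ∈ T'.comap θ) : conjHom P g ∈ pullSet θ hθ E' P := by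
  show pushHom θ hθ (conjHom P g) ∈ E'.Hom (P.map θ)
  have hP' : P.map θ ≤ T' := Subgroup.map_le_iff_le_comap.2 hP
  have h1 : conjHom (P.map θ) (θ g) ∈ E'.Hom (P.map θ) := E'.conj_mem hP' (Subgroup.mem_comap.1 hg)
  have h2 : conjHom (P.map θ) (θ g) = pushHom θ hθ (conjHom P g) := by
    apply pushHom_ext
    intro x hx
    simp [conjHom]
  rw [← h2]
  exact h1

end Cfsg.Agent.Lib.Helper80.FT
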