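import Mathlib
import Cfsg.Prelude.Def_FusionComponents
import Cfsg.Agent.Lib.Helper80.FT.Core0
import Cfsg.Agent.Lib.Helper80.FT.B2
import Cfsg.Agent.Lib.Helper80.FT.B3

set_option autoImplicit false
open Cfsg Cfsg.FusionSystem

namespace Cfsg.Agent.Lib.Helper80.FT

universe u v w
variable {Γ : Type u} [Group Γ] {Ω' : Type v} [Group Ω']

theorem pull_comp_mem (θ : Γ →* Ω') (hθ : Function.Injective θ) {T' : Subgroup Ω'} (E' : FusionSystem T')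
    {P Q : Subgroup Γ} {φ : P →* Γ} {ψ : Q →* Γ} (hφ : φ ∈ pullSet θ hθ E' P) (hψ : ψ ∈ pullSet θ hθ E' Q)
    (h : ∀ x : P, φ x ∈ Q) : ψ.comp (φ.codRestrict Q h) ∈ pullSet θ hθ E' P := by
  have hφ' : pushHom θ hθ φ ∈ E'.Hom (P.map θ) := hφ
  have hψ' : pushHom θ hθ ψ ∈ E'.Hom (Q.map θ) := hψ
  have h' : ∀ y : ↥(P.map θ), pushHom θ hθ φ y ∈ Q.map θ := by
    rintro ⟨y, hy⟩
    obtain ⟨x, hx, rfl⟩ := hy
    rw [pushHom_apply θ hθ φ ⟨x, hx⟩ (Subgroup.mem_map_of_mem θ hx)]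
    exact Subgroup.mem_map_of_mem θ (h ⟨x, hx⟩)
  have hc := E'.comp_mem hφ' hψ' h'
  have heq : (pushHom θ hθ ψ).comp ((pushHom θ hθ φ).codRestrict (Q.map θ) h') =
      pushHom θ hθ (ψ.comp (φ.codRestrict Q h)) := by
    apply pushHom_ext
    intro x hx
    have h1 : ((pushHom θ hθ φ).codRestrict (Q.map θ) h') ⟨θ x, hx⟩ =
        ⟨θ ((⟨φ x, h x⟩ : Q) : Γ), Subgroup.mem_map_of_mem θ (h x)⟩ := by
      apply Subtype.ext
      exact pushHom_apply θ hθ φ x hx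
    rw [MonoidHom.comp_apply, h1, pushHom_apply θ hθ ψ ⟨φ x, h x⟩]
    rfl
  show pushHom θ hθ (ψ.comp (φ.codRestrict Q h)) ∈ E'.Hom (P.map θ)
  rw [← heq]
  exact hc

end Cfsg.Agent.Lib.Helper80.FT
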