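import Mathlib
import Cfsg.Prelude.Def_FusionComponents
import Cfsg.Agent.Lib.Helper80.FT.Core0
import Cfsg.Agent.Lib.Helper80.FT.B2
import Cfsg.Agent.Lib.Helper80.FT.B3

set_option autoImplicit false
open Cfsg Cfsg.FusionSystem

namespace Cfsg.Agent.Lib.Helper80.FT

universe u v w
variable {Γ : Type u} [Group Γ] {Ω' : Type v} [Group Ω']

theorem pull_inv_mem (θ : Γ →* Ω') (hθ : Function.Injective θ) {T' : Subgroup Ω'} (E' : FusionSystem T')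
    {P : Subgroup Γ} {φ : P →* Γ} (hφ : φ ∈ pullSet θ hθ E' P) :
    ∃ ψ ∈ pullSet θ hθ E' φ.range, ∀ x : P, ψ ⟨φ x, ⟨x, rfl⟩⟩ = (x : Γ) := by
  have hφ' : pushHom θ hθ φ ∈ E'.Hom (P.map θ) := hφ
  obtain ⟨ψ', hψ', hinv⟩ := E'.inv_mem hφ'
  have hr : (pushHom θ hθ φ).range = φ.range.map θ := pushHom_range θ hθ φ
  -- cast ψ' to the subgroup `φ.range.map θ`
  let ψ'' : ↥(φ.range.map θ) →* Ω' :=
    ψ'.comp (Subgroup.inclusion (le_of_eq hr.symm))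
  have hψ'' : ψ'' ∈ E'.Hom (φ.range.map θ) := by
    refine hom_cast E' hr hψ' ψ'' ?_
    intro x hP hQ
    rfl
  -- value of ψ'' on θ (φ x)
  have hval : ∀ (x : P) (hx : θ (φ x) ∈ φ.range.map θ), ψ'' ⟨θ (φ x), hx⟩ = θ (x : Γ) := by
    intro x hx
    have hxP : θ (x : Γ) ∈ P.map θ := Subgroup.mem_map_of_mem θ x.2
    have h1 := hinv ⟨θ (x : Γ), hxP⟩
    have h2 : pushHom θ hθ φ ⟨θ (x : Γ), hxP⟩ = θ (φ x) := pushHom_apply θ hθ φ x hxP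
    have h3 : (Subgroup.inclusion (le_of_eq hr.symm) ⟨θ (φ x), hx⟩ : ↥(pushHom θ hθ φ).range) =
        ⟨pushHom θ hθ φ ⟨θ (x : Γ), hxP⟩, ⟨_, rfl⟩⟩ := by
      apply Subtype.ext
      exact h2.symm
    show ψ' (Subgroup.inclusion (le_of_eq hr.symm) ⟨θ (φ x), hx⟩) = θ (x : Γ)
    rw [h3]
    exact h1
  have hrange : ∀ y, ψ'' y ∈ θ.range := by
    rintro ⟨y, hy⟩
    obtain ⟨_, ⟨x, rfl⟩, rfl⟩ := hy
    have h5 := hval x (Subgroup.mem_map_of_mem θ ⟨x, rfl⟩)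
    exact ⟨_, h5.symm⟩
  obtain ⟨ψ, hψ⟩ := exists_pushHom_eq θ hθ ψ'' hrange
  refine ⟨ψ, ?_, ?_⟩
  · show pushHom θ hθ ψ ∈ E'.Hom (φ.range.map θ)
    rw [hψ]
    exact hψ''
  · intro x
    apply hθ
    have hx : θ (φ x) ∈ φ.range.map θ := Subgroup.mem_map_of_mem θ ⟨x, rfl⟩
    have h1 := pushHom_apply θ hθ ψ ⟨φ x, ⟨x, rfl⟩⟩ hx
    rw [← h1, hψ]
    exact hval x hx

end Cfsg.Agent.Lib.Helper80.FT
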