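import Mathlib
import Cfsg.Prelude.Def_FusionComponents
import Cfsg.Agent.Lib.Helper80.FT.Core0
import Cfsg.Agent.Lib.Helper80.FT.F1
import Cfsg.Agent.Lib.Helper80.FT.F2
import Cfsg.Agent.Lib.Helper80.FT.F3
import Cfsg.Agent.Lib.Helper80.FT.F4
import Cfsg.Agent.Lib.Helper80.FT.G1
import Cfsg.Agent.Lib.Helper80.FT.G2
import Cfsg.Agent.Lib.Helper80.FT.G3
import Cfsg.Agent.Lib.Helper80.FT.G4

set_option autoImplicit false
open Cfsg Cfsg.FusionSystem

namespace Cfsg.Agent.Lib.Helper80.FT

universe u v w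
variable {Γ : Type u} [Group Γ] {Ω' : Type v} [Group Ω']

/-- the pushed system -/
def push (θ : Γ →* Ω') (hθ : Function.Injective θ) {T : Subgroup Γ} (E : FusionSystem T) :
    FusionSystem (T.map θ) where
  Hom := pushSet θ E
  le_of_mem := push_le_of_mem θ hθ E
  injective_of_mem := push_injective_of_mem θ hθ E
  conj_mem := push_conj_mem θ hθ E
  comp_mem := push_comp_mem θ hθ E
  inv_mem := push_inv_mem θ hθ E

/-- the pulled-back system -/
def pull (θ : Γ →* Ω') (hθ : Function.Injective θ) {T' : Subgroup Ω'} (E' : FusionSystem T') :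
    FusionSystem (T'.comap θ) where
  Hom := pullSet θ hθ E'
  le_of_mem := pull_le_of_mem θ hθ E'
  injective_of_mem := pull_injective_of_mem θ hθ E'
  conj_mem := pull_conj_mem θ hθ E'
  comp_mem := pull_comp_mem θ hθ E'
  inv_mem := pull_inv_mem θ hθ E'

end Cfsg.Agent.Lib.Helper80.FT
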