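import Mathlib
import Cfsg.Prelude.Def_FusionComponents
import Cfsg.Agent.Lib.Helper80.FT.Core

set_option autoImplicit false
open Cfsg Cfsg.FusionSystem

namespace Cfsg.Agent.Lib.Helper80.FT

universe u v w
variable {Γ : Type u} [Group Γ] {Ω' : Type v} [Group Ω']

theorem kap_inj {Ω : Type u} [Group Ω] {S : Subgroup Ω} (α : ↥S ≃* ↥S) :
    Function.Injective (S.subtype.comp α.toMonoidHom) :=
  S.subtype_injective.comp α.injective

/-- the system `α E α⁻¹` over `α(T)` -/
def twist {Ω : Type u} [Group Ω] {S : Subgroup Ω} (α : ↥S ≃* ↥S) {T : Subgroup Ω} (E : FusionSystem T) :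
    FusionSystem (imageAlong (S.subtype.comp α.toMonoidHom) T) :=
  push (S.subtype.comp α.toMonoidHom) (kap_inj α) (pull S.subtype S.subtype_injective E)

end Cfsg.Agent.Lib.Helper80.FT
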