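import Mathlib
import Cfsg.Prelude.Def_FusionComponents
import Cfsg.Agent.Lib.Helper80.FT.Core
import Cfsg.Agent.Lib.Helper80.FT.B2

set_option autoImplicit false
open Cfsg Cfsg.FusionSystem

namespace Cfsg.Agent.Lib.Helper80.FT

universe u v w
variable {Γ : Type u} [Group Γ] {Ω' : Type v} [Group Ω']

theorem mem_push_iff (θ : Γ →* Ω') (hθ : Function.Injective θ) {T : Subgroup Γ} (E : FusionSystem T)
    {P : Subgroup Γ} (ψ : ↥(P.map θ) →* Ω') :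
    ψ ∈ (push θ hθ E).Hom (P.map θ) ↔ ∃ φ ∈ E.Hom P, ψ = pushHom θ hθ φ := by
  constructor
  · rintro ⟨P', φ', hφ', hP, hψ⟩
    have hPP : P' = P := Subgroup.map_injective hθ hP
    subst hPP
    exact ⟨φ', hφ', pushHom_ext θ hθ φ' ψ hψ⟩
  · rintro ⟨φ, hφ, rfl⟩
    exact ⟨P, φ, hφ, rfl, fun x hx => pushHom_apply θ hθ φ x hx⟩

theorem pushHom_mem_iff (θ : Γ →* Ω') (hθ : Function.Injective θ) {T : Subgroup Γ} (E : FusionSystem T)
    {P : Subgroup Γ} (φ : P →* Γ) :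
    pushHom θ hθ φ ∈ (push θ hθ E).Hom (P.map θ) ↔ φ ∈ E.Hom P := by
  rw [mem_push_iff]
  constructor
  · rintro ⟨φ', hφ', h⟩
    rw [pushHom_injective θ hθ h]
    exact hφ'
  · intro h
    exact ⟨φ, h, rfl⟩

theorem exists_map_of_mem_push (θ : Γ →* Ω') (hθ : Function.Injective θ) {T : Subgroup Γ} (E : FusionSystem T)
    {Q : Subgroup Ω'} {ψ : Q →* Ω'} (h : ψ ∈ (push θ hθ E).Hom Q) : ∃ P : Subgroup Γ, P.map θ = Q := by
  obtain ⟨P, φ, -, hP, -⟩ := h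
  exact ⟨P, hP⟩

theorem mem_pull_iff (θ : Γ →* Ω') (hθ : Function.Injective θ) {T' : Subgroup Ω'} (E' : FusionSystem T')
    {P : Subgroup Γ} (φ : P →* Γ) :
    φ ∈ (pull θ hθ E').Hom P ↔ pushHom θ hθ φ ∈ E'.Hom (P.map θ) := Iff.rfl

end Cfsg.Agent.Lib.Helper80.FT
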