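import Mathlib
import Cfsg.Prelude.Def_FusionComponents
import Cfsg.Agent.Lib.Helper80.FT.A0
import Cfsg.Agent.Lib.Helper80.FT.B2
import Cfsg.Agent.Lib.Helper80.FT.B3
import Cfsg.Agent.Lib.Helper80.FT.C1

set_option autoImplicit false
open Cfsg Cfsg.FusionSystem

namespace Cfsg.Agent.Lib.Helper80.FT

universe u v w
variable {Γ : Type u} [Group Γ] {Ω' : Type v} [Group Ω']

theorem twist_F_le {Ω : Type u} [Group Ω] {S : Subgroup Ω} (F : FusionSystem S) (α : ↥S ≃* ↥S)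
    (hα : F.IsMorphism F (S.subtype.comp α.toMonoidHom)) (Q : Subgroup Ω) :
    (twist α F).Hom Q ⊆ F.Hom Q := by
  rintro ψ ⟨P0, φ0, hφ0, hQ, hψ⟩
  have hi : Function.Injective S.subtype := S.subtype_injective
  have hφ0' : pushHom S.subtype hi φ0 ∈ F.Hom (P0.map S.subtype) := hφ0
  obtain ⟨φ', hφ', hP, hφS, hP', hind⟩ := hα.2 _ _ hφ0'
  have himg : imageAlong (S.subtype.comp α.toMonoidHom) (P0.map S.subtype) = Q := by
    unfold imageAlong
    have : (P0.map S.subtype).subgroupOf S = P0 := Subgroup.comap_map_eq_self_of_injective hi P0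
    rw [this]; exact hQ
  refine hom_cast F himg hφ' ψ ?_
  intro y hyP hyQ
  have hy : y ∈ P0.map (S.subtype.comp α.toMonoidHom) := by rw [hQ]; exact hyQ
  obtain ⟨x0, hx0, rfl⟩ := hy
  have h1 := hψ ⟨x0, hx0⟩ hyQ
  have h2 := hind ⟨S.subtype x0, Subgroup.mem_map_of_mem _ hx0⟩
  have h3 := pushHom_apply S.subtype hi φ0 ⟨x0, hx0⟩ (Subgroup.mem_map_of_mem _ hx0)
  have h4 : (⟨pushHom S.subtype hi φ0 ⟨S.subtype x0, Subgroup.mem_map_of_mem _ hx0⟩, hφS _⟩ : ↥S) =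
      φ0 ⟨x0, hx0⟩ := Subtype.ext h3
  rw [h4] at h2
  exact h1.trans h2.symm

end Cfsg.Agent.Lib.Helper80.FT
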