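import Mathlib
import Cfsg.Prelude.Def_FusionComponents
import Cfsg.Agent.Lib.Helper80.FT.A0
import Cfsg.Agent.Lib.Helper80.FT.B2
import Cfsg.Agent.Lib.Helper80.FT.B3
import Cfsg.Agent.Lib.Helper80.FT.C1

set_option autoImplicit false
open Cfsg Cfsg.FusionSystem

namespace Cfsg.Agent.Lib.Helper80.FT

universe u v w
variable {Γ : Type u} [Group Γ] {Ω' : Type v} [Group Ω']

theorem twist_F_ge {Ω : Type u} [Group Ω] {S : Subgroup Ω} (F : FusionSystem S) (α : ↥S ≃* ↥S)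
    (hα' : F.IsMorphism F (S.subtype.comp α.symm.toMonoidHom)) (Q : Subgroup Ω) :
    F.Hom Q ⊆ (twist α F).Hom Q := by
  intro ψ hψ
  obtain ⟨χ, hχ, hQ, hψS, hP', hind⟩ := hα'.2 Q ψ hψ
  let P0 : Subgroup ↥S := (Q.subgroupOf S).map α.symm.toMonoidHom
  have h : imageAlong (S.subtype.comp α.symm.toMonoidHom) Q = P0.map S.subtype := by
    show (Q.subgroupOf S).map (S.subtype.comp α.symm.toMonoidHom) = _
    rw [Subgroup.map_map]
  let ψ' : ↥(P0.map S.subtype) →* Ω := χ.comp (Subgroup.inclusion h.symm.le)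
  have hψ' : ψ' ∈ F.Hom (P0.map S.subtype) := hom_cast F h hχ ψ' (fun x hP hQ' => rfl)
  obtain ⟨φ0, hφ0⟩ := exists_pushHom_eq S.subtype S.subtype_injective ψ' (by
    intro y
    exact ⟨⟨ψ' y, (F.le_of_mem hψ').2 y⟩, rfl⟩)
  refine ⟨P0, φ0, ?_, ?_, ?_⟩
  · show pushHom S.subtype S.subtype_injective φ0 ∈ F.Hom (P0.map S.subtype)
    rw [hφ0]; exact hψ'
  · show ((Q.subgroupOf S).map α.symm.toMonoidHom).map (S.subtype.comp α.toMonoidHom) = Q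
    rw [Subgroup.map_map]
    have : (S.subtype.comp α.toMonoidHom).comp α.symm.toMonoidHom = S.subtype := by
      ext x; simp
    rw [this, Subgroup.subgroupOf_map_subtype, inf_eq_left.2 hQ]
  · rintro ⟨x, q, hq, rfl⟩ hx
    have hqQ : (q : Ω) ∈ Q := hq
    have e1 : S.subtype (φ0 ⟨α.symm.toMonoidHom q, ⟨q, hq, rfl⟩⟩)
        = ψ' ⟨S.subtype (α.symm.toMonoidHom q), ⟨_, ⟨q, hq, rfl⟩, rfl⟩⟩ := by
      rw [← hφ0]
      exact (pushHom_apply S.subtype S.subtype_injective φ0 ⟨α.symm.toMonoidHom q, ⟨q, hq, rfl⟩⟩ _).symm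
    have e2 := hind ⟨(q : Ω), hqQ⟩
    have e3 : S.subtype (φ0 ⟨α.symm.toMonoidHom q, ⟨q, hq, rfl⟩⟩)
        = S.subtype (α.symm ⟨ψ ⟨(q : Ω), hqQ⟩, hψS _⟩) := by
      rw [e1]
      exact e2
    have e4 := S.subtype_injective e3
    have e5 : S.subtype (α (φ0 ⟨α.symm.toMonoidHom q, ⟨q, hq, rfl⟩⟩)) = ψ ⟨(q : Ω), hqQ⟩ := by
      rw [e4, MulEquiv.apply_symm_apply]; rfl
    have e6 : (⟨(S.subtype.comp α.toMonoidHom) (α.symm.toMonoidHom q), hx⟩ : ↥Q) = ⟨(q : Ω), hqQ⟩ := by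
      apply Subtype.ext
      simp
    show ψ ⟨(S.subtype.comp α.toMonoidHom) (α.symm.toMonoidHom q), hx⟩
      = S.subtype (α (φ0 ⟨α.symm.toMonoidHom q, ⟨q, hq, rfl⟩⟩))
    rw [e5, e6]

end Cfsg.Agent.Lib.Helper80.FT
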