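import Mathlib
import Cfsg.Prelude.Def_FusionComponents
import Cfsg.Agent.Lib.Helper80.FT.A0
import Cfsg.Agent.Lib.Helper80.FT.A1a
import Cfsg.Agent.Lib.Helper80.FT.A1b

set_option autoImplicit false
open Cfsg Cfsg.FusionSystem

namespace Cfsg.Agent.Lib.Helper80.FT

universe u v w
variable {Γ : Type u} [Group Γ] {Ω' : Type v} [Group Ω']

theorem twist_F {Ω : Type u} [Group Ω] {S : Subgroup Ω} (F : FusionSystem S) (α : ↥S ≃* ↥S)
    (hα : F.IsMorphism F (S.subtype.comp α.toMonoidHom))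
    (hα' : F.IsMorphism F (S.subtype.comp α.symm.toMonoidHom)) : Same (twist α F) F := by
  refine ⟨?_, fun Q => Set.Subset.antisymm (twist_F_le F α hα Q) (twist_F_ge F α hα' Q)⟩
  ext x
  constructor
  · rintro ⟨y, _, rfl⟩
    exact (α y).2
  · intro hx
    refine ⟨α.symm ⟨x, hx⟩, ?_, ?_⟩
    · exact (α.symm ⟨x, hx⟩).2
    · simp

end Cfsg.Agent.Lib.Helper80.FT
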