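import Mathlib
import Cfsg.Prelude.Def_FusionComponents
import Cfsg.Agent.Lib.Helper80.FT.Core0

set_option autoImplicit false
open Cfsg Cfsg.FusionSystem

namespace Cfsg.Agent.Lib.Helper80.FT

universe u v w
variable {Γ : Type u} [Group Γ] {Ω' : Type v} [Group Ω']

theorem B1_ext {Ω : Type u} [Group Ω] {T : Subgroup Ω} {E E' : FusionSystem T}
    (h : ∀ P : Subgroup Ω, E.Hom P = E'.Hom P) : E = E' := by
  cases E
  cases E'
  congr
  funext P
  exact h P

theorem Same.elim {Ω : Type u} [Group Ω] {T T' : Subgroup Ω} {E : FusionSystem T} {E' : FusionSystem T'}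
    (h : Same E E') (M : ∀ T : Subgroup Ω, FusionSystem T → Prop) (hM : M T E) : M T' E' := by
  obtain ⟨hT, hH⟩ := h
  subst hT
  have : E = E' := B1_ext hH
  subst this
  exact hM

theorem Same.symm {Ω : Type u} [Group Ω] {T T' : Subgroup Ω} {E : FusionSystem T} {E' : FusionSystem T'}
    (h : Same E E') : Same E' E :=
  ⟨h.1.symm, fun P => (h.2 P).symm⟩

theorem Same.trans {Ω : Type u} [Group Ω] {T T' T'' : Subgroup Ω} {E : FusionSystem T} {E' : FusionSystem T'}
    {E'' : FusionSystem T''} (h : Same E E') (h' : Same E' E'') : Same E E'' :=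
  ⟨h.1.trans h'.1, fun P => (h.2 P).trans (h'.2 P)⟩

theorem Same.refl {Ω : Type u} [Group Ω] {T : Subgroup Ω} (E : FusionSystem T) : Same E E :=
  ⟨rfl, fun _ => rfl⟩

end Cfsg.Agent.Lib.Helper80.FT
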