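import Mathlib
import Cfsg.Prelude.Def_FusionComponents
import Cfsg.Agent.Lib.Helper80.FT.Core
import Cfsg.Agent.Lib.Helper80.FT.B2
import Cfsg.Agent.Lib.Helper80.FT.C1

set_option autoImplicit false
open Cfsg Cfsg.FusionSystem

namespace Cfsg.Agent.Lib.Helper80.FT

universe u v w
variable {Γ : Type u} [Group Γ] {Ω' : Type v} [Group Ω']

theorem push_pull (θ : Γ →* Ω') (hθ : Function.Injective θ) {T' : Subgroup Ω'} (E' : FusionSystem T')
    (h : T' ≤ θ.range) : Same (push θ hθ (pull θ hθ E')) E' := by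
  refine ⟨Subgroup.map_comap_eq_self h, fun Q => ?_⟩
  ext ψ
  constructor
  · rintro ⟨P, φ, hφ, hP, hψ⟩
    subst hP
    have h1 : ψ = pushHom θ hθ φ := pushHom_ext θ hθ φ ψ hψ
    rw [h1]
    exact hφ
  · intro hψ
    obtain ⟨hQ, hval⟩ := E'.le_of_mem hψ
    obtain ⟨P, rfl⟩ := exists_map_eq θ (hQ.trans h)
    obtain ⟨φ, hφ⟩ := exists_pushHom_eq θ hθ ψ (fun y => h (hval y))
    refine (mem_push_iff θ hθ (pull θ hθ E') ψ).2 ⟨φ, ?_, hφ.symm⟩
    show pushHom θ hθ φ ∈ E'.Hom (P.map θ)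
    rw [hφ]
    exact hψ

end Cfsg.Agent.Lib.Helper80.FT
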