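import Mathlib
import Cfsg.Prelude.Def_FusionComponents
import Cfsg.Agent.Lib.Helper80.FT.Core
import Cfsg.Agent.Lib.Helper80.FT.B2
import Cfsg.Agent.Lib.Helper80.FT.C1

set_option autoImplicit false
open Cfsg Cfsg.FusionSystem

namespace Cfsg.Agent.Lib.Helper80.FT

universe u v w
variable {Γ : Type u} [Group Γ] {Ω' : Type v} [Group Ω']

theorem pull_push (θ : Γ →* Ω') (hθ : Function.Injective θ) {T : Subgroup Γ} (E : FusionSystem T) :
    Same (pull θ hθ (push θ hθ E)) E := by
  refine ⟨Subgroup.comap_map_eq_self_of_injective hθ T, fun P => ?_⟩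
  ext φ
  rw [mem_pull_iff, pushHom_mem_iff]

end Cfsg.Agent.Lib.Helper80.FT
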