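import Mathlib
import Cfsg.Prelude.Def_FusionComponents
import Cfsg.Agent.Lib.Helper80.FT.Core
import Cfsg.Agent.Lib.Helper80.FT.B1
import Cfsg.Agent.Lib.Helper80.FT.B2
import Cfsg.Agent.Lib.Helper80.FT.C1

set_option autoImplicit false
open Cfsg Cfsg.FusionSystem

namespace Cfsg.Agent.Lib.Helper80.FT

universe u v w
variable {Γ : Type u} [Group Γ] {Ω' : Type v} [Group Ω']

theorem push_comp {Ω'' : Type w} [Group Ω''] (θ : Γ →* Ω') (hθ : Function.Injective θ) (θ₂ : Ω' →* Ω'')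
    (hθ₂ : Function.Injective θ₂) (h12 : Function.Injective (θ₂.comp θ)) {T : Subgroup Γ} (E : FusionSystem T) :
    Same (push θ₂ hθ₂ (push θ hθ E)) (push (θ₂.comp θ) h12 E) := by
  refine ⟨Subgroup.map_map T θ₂ θ, fun Q => ?_⟩
  ext ψ
  constructor
  · rintro ⟨P', φ', hφ', hP', hψ⟩
    obtain ⟨P, φ, hφ, hP, hφ2⟩ := hφ'
    refine ⟨P, φ, hφ, ?_, ?_⟩
    · rw [← hP', ← hP, Subgroup.map_map]
    · intro x hx
      have hx' : θ x ∈ P' := by rw [← hP]; exact Subgroup.mem_map_of_mem θ x.2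
      have e1 := hψ ⟨θ x, hx'⟩ hx
      have e2 := hφ2 x hx'
      simp only [MonoidHom.comp_apply]
      rw [← e2]
      exact e1
  · rintro ⟨P, φ, hφ, hP, hψ⟩
    refine ⟨P.map θ, pushHom θ hθ φ, (pushHom_mem_iff θ hθ E φ).2 hφ, ?_, ?_⟩
    · rw [← hP, Subgroup.map_map]
    · rintro ⟨y, hy⟩ hx
      obtain ⟨x, hxP, rfl⟩ := hy
      have e1 := hψ ⟨x, hxP⟩ hx
      have e2 := pushHom_apply θ hθ φ ⟨x, hxP⟩ (Subgroup.mem_map_of_mem θ hxP)
      rw [e2]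
      exact e1

theorem push_congr {θ θ' : Γ →* Ω'} (h : θ = θ') (hθ : Function.Injective θ) (hθ' : Function.Injective θ')
    {T : Subgroup Γ} (E : FusionSystem T) : Same (push θ hθ E) (push θ' hθ' E) := by
  subst h
  exact ⟨rfl, fun _ => rfl⟩

theorem push_same (θ : Γ →* Ω') (hθ : Function.Injective θ) {T T₁ : Subgroup Γ} {E : FusionSystem T}
    {E₁ : FusionSystem T₁} (h : Same E E₁) : Same (push θ hθ E) (push θ hθ E₁) := by
  obtain ⟨hT, hH⟩ := h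
  subst hT
  refine ⟨rfl, fun Q => ?_⟩
  ext ψ
  constructor
  · rintro ⟨P, φ, hφ, hP, hψ⟩
    exact ⟨P, φ, (hH P) ▸ hφ, hP, hψ⟩
  · rintro ⟨P, φ, hφ, hP, hψ⟩
    exact ⟨P, φ, (hH P).symm ▸ hφ, hP, hψ⟩

theorem exists_same_of_eq {Ω : Type u} [Group Ω] {T T' : Subgroup Ω} (h : T = T') (E : FusionSystem T) :
    ∃ E' : FusionSystem T', Same E E' := by
  subst h
  exact ⟨E, rfl, fun _ => rfl⟩

end Cfsg.Agent.Lib.Helper80.FT
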