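import Mathlib
import Cfsg.Prelude.Def_FusionComponents
import Cfsg.Agent.Lib.Helper80.FT.Core
import Cfsg.Agent.Lib.Helper80.FT.B2
import Cfsg.Agent.Lib.Helper80.FT.C1

set_option autoImplicit false
open Cfsg Cfsg.FusionSystem

namespace Cfsg.Agent.Lib.Helper80.FT

universe u v w
variable {Γ : Type u} [Group Γ] {Ω' : Type v} [Group Ω']

theorem isConj_iff (θ : Γ →* Ω') (hθ : Function.Injective θ) {T : Subgroup Γ} (E : FusionSystem T)
    (P Q : Subgroup Γ) : (push θ hθ E).IsConj (P.map θ) (Q.map θ) ↔ E.IsConj P Q := by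
  constructor
  · rintro ⟨ψ, hψ, hr⟩
    obtain ⟨φ, hφ, rfl⟩ := (mem_push_iff θ hθ E ψ).1 hψ
    rw [pushHom_range] at hr
    exact ⟨φ, hφ, Subgroup.map_injective hθ hr⟩
  · rintro ⟨φ, hφ, hr⟩
    refine ⟨pushHom θ hθ φ, (pushHom_mem_iff θ hθ E φ).2 hφ, ?_⟩
    rw [pushHom_range, hr]

theorem exists_map_of_isConj (θ : Γ →* Ω') (hθ : Function.Injective θ) {T : Subgroup Γ} (E : FusionSystem T)
    (P : Subgroup Γ) (Q' : Subgroup Ω') (h : (push θ hθ E).IsConj (P.map θ) Q') : ∃ Q : Subgroup Γ, Q.map θ = Q' := by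
  obtain ⟨ψ, hψ, hr⟩ := h
  obtain ⟨φ, hφ, rfl⟩ := (mem_push_iff θ hθ E ψ).1 hψ
  rw [pushHom_range] at hr
  exact ⟨φ.range, hr⟩

end Cfsg.Agent.Lib.Helper80.FT
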