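import Mathlib
import Cfsg.Prelude.Def_FusionComponents
import Cfsg.Agent.Lib.Helper80.FT.Core0

set_option autoImplicit false
open Cfsg Cfsg.FusionSystem

namespace Cfsg.Agent.Lib.Helper80.FT

universe u v w
variable {Γ : Type u} [Group Γ] {Ω' : Type v} [Group Ω']

theorem autEquiv_apply (θ : Γ →* Ω') (hθ : Function.Injective θ) (P : Subgroup Γ) (a : MulAut P) (x : P)
    (hx : θ x ∈ P.map θ) : ((autEquiv θ hθ P a ⟨θ x, hx⟩ : ↥(P.map θ)) : Ω') = θ (a x : P) := by
  have hy : (⟨θ x, hx⟩ : ↥(P.map θ)) = P.equivMapOfInjective θ hθ x := by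
    apply Subtype.ext; rw [Subgroup.coe_equivMapOfInjective_apply]
  rw [hy]
  simp [autEquiv, MulAut.congr]

theorem autEquiv_pushHom (θ : Γ →* Ω') (hθ : Function.Injective θ) (P : Subgroup Γ) (a : MulAut P) :
    (P.map θ).subtype.comp (autEquiv θ hθ P a).toMonoidHom = pushHom θ hθ (P.subtype.comp a.toMonoidHom) := by
  ext y
  obtain ⟨x, rfl⟩ := (P.equivMapOfInjective θ hθ).surjective y
  simp [autEquiv, MulAut.congr, pushHom]

end Cfsg.Agent.Lib.Helper80.FT
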