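import Mathlib
import Cfsg.Prelude.Def_FusionComponents
import Cfsg.Agent.Lib.Helper80.FT.Core
import Cfsg.Agent.Lib.Helper80.FT.B2
import Cfsg.Agent.Lib.Helper80.FT.C1
import Cfsg.Agent.Lib.Helper80.FT.D2a

set_option autoImplicit false
open Cfsg Cfsg.FusionSystem

namespace Cfsg.Agent.Lib.Helper80.FT

universe u v w
variable {Γ : Type u} [Group Γ] {Ω' : Type v} [Group Ω']

theorem autGroup_push (θ : Γ →* Ω') (hθ : Function.Injective θ) {T : Subgroup Γ} (E : FusionSystem T)
    (P : Subgroup Γ) :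
    (push θ hθ E).autGroup (P.map θ) = (E.autGroup P).map (autEquiv θ hθ P).toMonoidHom := by
  unfold FusionSystem.autGroup
  rw [MonoidHom.map_closure]
  congr 1
  ext α'
  simp only [Set.mem_setOf_eq, Set.mem_image]
  constructor
  · intro h
    refine ⟨(autEquiv θ hθ P).symm α', ?_, by simp⟩
    rw [← pushHom_mem_iff θ hθ E, ← autEquiv_pushHom, MulEquiv.apply_symm_apply]
    exact h
  · rintro ⟨α, hα, rfl⟩
    show (P.map θ).subtype.comp ((autEquiv θ hθ P) α).toMonoidHom ∈ _
    rw [autEquiv_pushHom, pushHom_mem_iff]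
    exact hα

theorem mem_autGroup_push_iff (θ : Γ →* Ω') (hθ : Function.Injective θ) {T : Subgroup Γ} (E : FusionSystem T)
    (P : Subgroup Γ) (a : MulAut P) :
    autEquiv θ hθ P a ∈ (push θ hθ E).autGroup (P.map θ) ↔ a ∈ E.autGroup P := by
  rw [autGroup_push, Subgroup.mem_map]
  constructor
  · rintro ⟨a', ha', e⟩
    have : a' = a := (autEquiv θ hθ P).injective e
    rw [← this]
    exact ha'
  · intro h
    exact ⟨a, h, rfl⟩

end Cfsg.Agent.Lib.Helper80.FT
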