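import Mathlib
import Cfsg.Prelude.Def_FusionComponents
import Cfsg.Agent.Lib.Helper80.FT.Core0
import Cfsg.Agent.Lib.Helper80.FT.D2a

set_option autoImplicit false
open Cfsg Cfsg.FusionSystem

namespace Cfsg.Agent.Lib.Helper80.FT

universe u v w
variable {Γ : Type u} [Group Γ] {Ω' : Type v} [Group Ω']

theorem autInducedBy_map (θ : Γ →* Ω') (hθ : Function.Injective θ) (K P : Subgroup Γ) :
    autInducedBy (K.map θ) (P.map θ) = (autInducedBy K P).map (autEquiv θ hθ P).toMonoidHom := by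
  unfold autInducedBy
  rw [MonoidHom.map_closure]
  congr 1
  ext α'
  constructor
  · rintro ⟨g', ⟨g, hg, rfl⟩, hα'⟩
    refine ⟨(autEquiv θ hθ P).symm α', ⟨g, hg, ?_⟩, ?_⟩
    · intro x
      apply hθ
      have hx : θ x ∈ P.map θ := Subgroup.mem_map_of_mem θ x.2
      have h1 := autEquiv_apply θ hθ P ((autEquiv θ hθ P).symm α') x hx
      rw [MulEquiv.apply_symm_apply] at h1
      rw [← h1, hα' ⟨θ x, hx⟩, map_mul, map_mul, map_inv]
    · exact MulEquiv.apply_symm_apply _ _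
  · rintro ⟨α, ⟨g, hg, hα⟩, rfl⟩
    refine ⟨θ g, Subgroup.mem_map_of_mem θ hg, ?_⟩
    rintro ⟨y, hy⟩
    obtain ⟨x, hx, rfl⟩ := hy
    have h1 := autEquiv_apply θ hθ P α ⟨x, hx⟩ (Subgroup.mem_map_of_mem θ hx)
    have h2 := hα ⟨x, hx⟩
    show (((autEquiv θ hθ P) α ⟨θ x, _⟩ : ↥(P.map θ)) : Ω') = θ g * θ x * (θ g)⁻¹
    rw [h1, h2, map_mul, map_mul, map_inv]

end Cfsg.Agent.Lib.Helper80.FT
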