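import Mathlib
import Cfsg.Prelude.Def_FusionComponents

set_option autoImplicit false
open Cfsg Cfsg.FusionSystem

namespace Cfsg.Agent.Lib.Helper80.FT

universe u v w
variable {Γ : Type u} [Group Γ] {Ω' : Type v} [Group Ω']

theorem sylow_transport {A : Type u} {B : Type v} [Group A] [Group B] (f : A ≃* B) (p : ℕ) (H K : Subgroup A) :
    (∃ R : Sylow p ↥(H.map f.toMonoidHom),
        (R : Subgroup ↥(H.map f.toMonoidHom)) = (K.map f.toMonoidHom).subgroupOf (H.map f.toMonoidHom)) ↔
      (∃ R : Sylow p ↥H, (R : Subgroup ↥H) = K.subgroupOf H) := by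
  let e : ↥H ≃* ↥(H.map f.toMonoidHom) := H.equivMapOfInjective f.toMonoidHom f.injective
  have he : ∀ x : ↥H, ((e x : ↥(H.map f.toMonoidHom)) : B) = f (x : A) := fun x =>
    Subgroup.coe_equivMapOfInjective_apply _ _ _ _
  have hmem : ∀ x : A, f x ∈ K.map f.toMonoidHom ↔ x ∈ K := fun x =>
    Subgroup.mem_map_iff_mem (f := f.toMonoidHom) f.injective
  have h1 : ((K.map f.toMonoidHom).subgroupOf (H.map f.toMonoidHom)).comap e.toMonoidHom
      = K.subgroupOf H := by
    ext x
    rw [Subgroup.mem_comap, Subgroup.mem_subgroupOf, Subgroup.mem_subgroupOf]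
    show ((e x : ↥(H.map f.toMonoidHom)) : B) ∈ _ ↔ _
    rw [he]; exact hmem x
  have h2 : (K.subgroupOf H).comap e.symm.toMonoidHom
      = (K.map f.toMonoidHom).subgroupOf (H.map f.toMonoidHom) := by
    rw [← h1]
    ext y
    rw [Subgroup.mem_comap, Subgroup.mem_comap]
    show e (e.symm y) ∈ _ ↔ _
    rw [MulEquiv.apply_symm_apply]
  constructor
  · rintro ⟨R, hR⟩
    refine ⟨R.comapOfInjective e.toMonoidHom e.injective (by
      rw [MonoidHom.range_eq_top.2 e.surjective]; exact le_top), ?_⟩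
    show Subgroup.comap e.toMonoidHom (R : Subgroup ↥(H.map f.toMonoidHom)) = _
    rw [hR, h1]
  · rintro ⟨R, hR⟩
    refine ⟨R.comapOfInjective e.symm.toMonoidHom e.symm.injective (by
      rw [MonoidHom.range_eq_top.2 e.symm.surjective]; exact le_top), ?_⟩
    show Subgroup.comap e.symm.toMonoidHom (R : Subgroup ↥H) = _
    rw [hR, h2]

end Cfsg.Agent.Lib.Helper80.FT
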