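import Mathlib
import Cfsg.Prelude.Def_FusionComponents
import Cfsg.Agent.Lib.Helper80.FT.Core
import Cfsg.Agent.Lib.Helper80.FT.D2
import Cfsg.Agent.Lib.Helper80.FT.D3
import Cfsg.Agent.Lib.Helper80.FT.D4

set_option autoImplicit false
open Cfsg Cfsg.FusionSystem

namespace Cfsg.Agent.Lib.Helper80.FT

universe u v w
variable {Γ : Type u} [Group Γ] {Ω' : Type v} [Group Ω']

theorem D5_aux {B : Type v} [Group B] (p : ℕ) {H H' K K' : Subgroup B} (hH : H = H') (hK : K = K') :
    (∃ R : Sylow p ↥H, (R : Subgroup ↥H) = K.subgroupOf H) ↔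
      (∃ R : Sylow p ↥H', (R : Subgroup ↥H') = K'.subgroupOf H') := by
  subst hH; subst hK; exact Iff.rfl

theorem fullyAutomized_iff (θ : Γ →* Ω') (hθ : Function.Injective θ) {T : Subgroup Γ} (E : FusionSystem T)
    (p : ℕ) (P : Subgroup Γ) : (push θ hθ E).IsFullyAutomized p (P.map θ) ↔ E.IsFullyAutomized p P := by
  unfold IsFullyAutomized
  have h1 : P.map θ ≤ T.map θ ↔ P ≤ T := Subgroup.map_le_map_iff_of_injective hθ
  rw [h1]
  have h2 := D5_aux p (autGroup_push θ hθ E P) (autInducedBy_map θ hθ T P)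
  rw [h2, sylow_transport]

end Cfsg.Agent.Lib.Helper80.FT
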