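import Mathlib
import Cfsg.Prelude.Def_FusionComponents
import Cfsg.Agent.Lib.Helper80.FT.Core0
import Cfsg.Agent.Lib.Helper80.FT.B2

set_option autoImplicit false
open Cfsg Cfsg.FusionSystem

namespace Cfsg.Agent.Lib.Helper80.FT

universe u v w
variable {Γ : Type u} [Group Γ] {Ω' : Type v} [Group Ω']

theorem D6_norm (θ : Γ →* Ω') (hθ : Function.Injective θ) (P : Subgroup Γ) (g : Γ) :
    θ g ∈ Subgroup.normalizer ((P.map θ : Subgroup Ω') : Set Ω') ↔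
      g ∈ Subgroup.normalizer (P : Set Γ) := by
  rw [Subgroup.mem_normalizer_iff, Subgroup.mem_normalizer_iff]
  constructor
  · intro h x
    have := h (θ x)
    rw [← map_inv, ← map_mul, ← map_mul, Subgroup.mem_map_iff_mem hθ,
      Subgroup.mem_map_iff_mem hθ] at this
    exact this
  · intro h y
    constructor
    · rintro ⟨x, hx, rfl⟩
      rw [← map_inv, ← map_mul, ← map_mul, Subgroup.mem_map_iff_mem hθ]
      exact (h x).1 hx
    · rintro ⟨x, hx, hxy⟩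
      refine ⟨g⁻¹ * x * g, ?_, ?_⟩
      · rw [SetLike.mem_coe, h]
        have : g * (g⁻¹ * x * g) * g⁻¹ = x := by group
        rw [this]; exact hx
      · rw [map_mul, map_mul, hxy, map_inv]; group

theorem extender_map (θ : Γ →* Ω') (hθ : Function.Injective θ) (T P : Subgroup Γ) (φ : P →* Γ) :
    extender (T.map θ) (P.map θ) (pushHom θ hθ φ) = (extender T P φ).map θ := by
  unfold extender
  rw [MonoidHom.map_closure]
  congr 1
  ext g'
  constructor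
  · rintro ⟨⟨g, hgT, rfl⟩, hgN, ⟨_, ⟨h, hhT, rfl⟩, hh⟩⟩
    refine ⟨g, ⟨hgT, (D6_norm θ hθ P g).1 hgN, h, hhT, ?_⟩, rfl⟩
    intro x hx
    apply hθ
    have hx1 : θ (x : Γ) ∈ P.map θ := Subgroup.mem_map_of_mem θ x.2
    have hx2 : θ g * θ (x : Γ) * (θ g)⁻¹ ∈ P.map θ := by
      rw [← map_inv, ← map_mul, ← map_mul]; exact Subgroup.mem_map_of_mem θ hx
    have := hh ⟨θ x, hx1⟩ hx2
    rw [pushHom_apply] at this
    have e : (⟨θ g * θ (x : Γ) * (θ g)⁻¹, hx2⟩ : ↥(P.map θ)) =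
        ⟨θ ((⟨g * x * g⁻¹, hx⟩ : P) : Γ), Subgroup.mem_map_of_mem θ hx⟩ :=
      Subtype.ext (by simp)
    rw [e, pushHom_apply] at this
    rw [this, map_mul, map_mul, map_inv]
  · rintro ⟨g, ⟨hgT, hgN, h, hhT, hh⟩, rfl⟩
    refine ⟨Subgroup.mem_map_of_mem θ hgT, (D6_norm θ hθ P g).2 hgN, θ h,
      Subgroup.mem_map_of_mem θ hhT, ?_⟩
    rintro ⟨_, x, hx, rfl⟩ hx2
    have hx3 : g * x * g⁻¹ ∈ P := (Subgroup.mem_normalizer_iff.1 hgN x).1 hx
    have e : (⟨θ g * θ x * (θ g)⁻¹, hx2⟩ : ↥(P.map θ)) =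
        ⟨θ ((⟨g * x * g⁻¹, hx3⟩ : P) : Γ), Subgroup.mem_map_of_mem θ hx3⟩ :=
      Subtype.ext (by simp)
    have e2 := pushHom_apply θ hθ φ ⟨x, hx⟩ (Subgroup.mem_map_of_mem θ hx)
    rw [e, pushHom_apply, hh ⟨x, hx⟩ hx3, map_mul, map_mul, map_inv]
    rw [← e2]

end Cfsg.Agent.Lib.Helper80.FT
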