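import Mathlib
import Cfsg.Prelude.Def_FusionComponents
import Cfsg.Agent.Lib.Helper80.FT.Core
import Cfsg.Agent.Lib.Helper80.FT.B2
import Cfsg.Agent.Lib.Helper80.FT.B3
import Cfsg.Agent.Lib.Helper80.FT.C1
import Cfsg.Agent.Lib.Helper80.FT.D6

set_option autoImplicit false
open Cfsg Cfsg.FusionSystem

namespace Cfsg.Agent.Lib.Helper80.FT

universe u v w
variable {Γ : Type u} [Group Γ] {Ω' : Type v} [Group Ω']

theorem receptive_mp (θ : Γ →* Ω') (hθ : Function.Injective θ) {T : Subgroup Γ} (E : FusionSystem T)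
    (Q : Subgroup Γ) (h : (push θ hθ E).IsReceptive (Q.map θ)) : E.IsReceptive Q := by
  refine ⟨(Subgroup.map_le_map_iff_of_injective hθ).1 h.1, ?_⟩
  intro P φ hφ hr
  have h1 := h.2 (P.map θ) (pushHom θ hθ φ) ((pushHom_mem_iff θ hθ E φ).2 hφ)
    (by rw [pushHom_range, hr])
  rw [extender_map] at h1
  obtain ⟨ψ', hψ', hag⟩ := h1
  obtain ⟨ψ, hψ, rfl⟩ := (mem_push_iff θ hθ E ψ').1 hψ'
  refine ⟨ψ, hψ, ?_⟩
  intro x hP hN
  apply hθ
  have h2 := hag (θ x) (Subgroup.mem_map_of_mem θ hP) (Subgroup.mem_map_of_mem θ hN)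
  have h3 := pushHom_apply θ hθ ψ ⟨x, hN⟩ (Subgroup.mem_map_of_mem θ hN)
  have h4 := pushHom_apply θ hθ φ ⟨x, hP⟩ (Subgroup.mem_map_of_mem θ hP)
  exact h3.symm.trans (h2.trans h4)

end Cfsg.Agent.Lib.Helper80.FT
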