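import Mathlib
import Cfsg.Prelude.Def_FusionComponents
import Cfsg.Agent.Lib.Helper80.FT.Core
import Cfsg.Agent.Lib.Helper80.FT.B2
import Cfsg.Agent.Lib.Helper80.FT.B3
import Cfsg.Agent.Lib.Helper80.FT.C1
import Cfsg.Agent.Lib.Helper80.FT.D6

set_option autoImplicit false
open Cfsg Cfsg.FusionSystem

namespace Cfsg.Agent.Lib.Helper80.FT

universe u v w
variable {Γ : Type u} [Group Γ] {Ω' : Type v} [Group Ω']

theorem receptive_mpr (θ : Γ →* Ω') (hθ : Function.Injective θ) {T : Subgroup Γ} (E : FusionSystem T)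
    (Q : Subgroup Γ) (h : E.IsReceptive Q) : (push θ hθ E).IsReceptive (Q.map θ) := by
  refine ⟨Subgroup.map_mono h.1, ?_⟩
  intro P' φ' hφ' hr
  obtain ⟨P, rfl⟩ := exists_map_of_mem_push θ hθ E hφ'
  obtain ⟨φ, hφ, rfl⟩ := (mem_push_iff θ hθ E φ').1 hφ'
  rw [pushHom_range] at hr
  have hr' : φ.range = Q := Subgroup.map_injective hθ hr
  obtain ⟨ψ, hψ, hag⟩ := h.2 P φ hφ hr'
  rw [extender_map]
  refine ⟨pushHom θ hθ ψ, (pushHom_mem_iff θ hθ E ψ).2 hψ, ?_⟩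
  rintro _ ⟨x, hx, rfl⟩ hN
  have hxN : x ∈ extender T P φ := (Subgroup.mem_map_iff_mem hθ).1 hN
  have h3 := pushHom_apply θ hθ ψ ⟨x, hxN⟩ hN
  have h4 := pushHom_apply θ hθ φ ⟨x, hx⟩ (Subgroup.mem_map_of_mem θ hx)
  exact h3.trans ((congrArg θ (hag x hx hxN)).trans h4.symm)

end Cfsg.Agent.Lib.Helper80.FT
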