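import Mathlib
import Cfsg.Prelude.Def_FusionComponents
import Cfsg.Agent.Lib.Helper80.FT.Core
import Cfsg.Agent.Lib.Helper80.FT.B2
import Cfsg.Agent.Lib.Helper80.FT.D1
import Cfsg.Agent.Lib.Helper80.FT.D5
import Cfsg.Agent.Lib.Helper80.FT.D7a
import Cfsg.Agent.Lib.Helper80.FT.D7b

set_option autoImplicit false
open Cfsg Cfsg.FusionSystem

namespace Cfsg.Agent.Lib.Helper80.FT

universe u v w
variable {Γ : Type u} [Group Γ] {Ω' : Type v} [Group Ω']

theorem sat_iff (θ : Γ →* Ω') (hθ : Function.Injective θ) {T : Subgroup Γ} (E : FusionSystem T) (p : ℕ) :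
    (push θ hθ E).IsSaturated p ↔ E.IsSaturated p := by
  constructor
  · intro h P hP
    obtain ⟨Q', hc, hf, hr⟩ := h (P.map θ) (Subgroup.map_mono hP)
    obtain ⟨Q, rfl⟩ := exists_map_of_isConj θ hθ E P Q' hc
    exact ⟨Q, (isConj_iff θ hθ E P Q).1 hc, (fullyAutomized_iff θ hθ E p Q).1 hf,
      receptive_mp θ hθ E Q hr⟩
  · intro h P' hP'
    have hle : P' ≤ θ.range := hP'.trans (Subgroup.map_le_range θ T)
    obtain ⟨P, rfl⟩ := exists_map_eq θ hle
    have hP : P ≤ T := (Subgroup.map_le_map_iff_of_injective hθ).1 hP'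
    obtain ⟨Q, hc, hf, hr⟩ := h P hP
    exact ⟨Q.map θ, (isConj_iff θ hθ E P Q).2 hc, (fullyAutomized_iff θ hθ E p Q).2 hf,
      receptive_mpr θ hθ E Q hr⟩

end Cfsg.Agent.Lib.Helper80.FT
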