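import Mathlib
import Cfsg.Prelude.Def_FusionComponents
import Cfsg.Agent.Lib.Helper80.FT.Core
import Cfsg.Agent.Lib.Helper80.FT.B2
import Cfsg.Agent.Lib.Helper80.FT.B3
import Cfsg.Agent.Lib.Helper80.FT.C1

set_option autoImplicit false
open Cfsg Cfsg.FusionSystem

namespace Cfsg.Agent.Lib.Helper80.FT

universe u v w
variable {Γ : Type u} [Group Γ] {Ω' : Type v} [Group Ω']

theorem central_mp (θ : Γ →* Ω') (hθ : Function.Injective θ) {S : Subgroup Γ} (F : FusionSystem S)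
    (Q : Subgroup Γ) (h : (push θ hθ F).IsCentral (Q.map θ)) : F.IsCentral Q := by
  obtain ⟨hQ, hext⟩ := h
  refine ⟨(Subgroup.map_le_map_iff_of_injective hθ).1 hQ, ?_⟩
  intro P φ hφ
  obtain ⟨ψ', hψ', h1, h2⟩ := hext (P.map θ) (pushHom θ hθ φ) ((pushHom_mem_iff θ hθ F φ).2 hφ)
  have hsup : P.map θ ⊔ Q.map θ = (P ⊔ Q).map θ := (Subgroup.map_sup P Q θ).symm
  let ψ'' : ↥((P ⊔ Q).map θ) →* Ω' := ψ'.comp (Subgroup.inclusion (le_of_eq hsup.symm))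
  have hψ'' : ψ'' ∈ (push θ hθ F).Hom ((P ⊔ Q).map θ) :=
    hom_cast (push θ hθ F) hsup hψ' ψ'' (fun x hP hQ => rfl)
  obtain ⟨ψ, hψ, hψe⟩ := (mem_push_iff θ hθ F ψ'').1 hψ''
  refine ⟨ψ, hψ, ?_, ?_⟩
  · intro x
    apply hθ
    have hx : θ (x : Γ) ∈ P.map θ := Subgroup.mem_map_of_mem θ x.2
    have hx' : θ ((Subgroup.inclusion (le_sup_left : P ≤ P ⊔ Q) x : ↥(P ⊔ Q)) : Γ) ∈ (P ⊔ Q).map θ :=
      Subgroup.mem_map_of_mem θ (Subgroup.inclusion (le_sup_left : P ≤ P ⊔ Q) x).2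
    have e1 := pushHom_apply θ hθ ψ (Subgroup.inclusion (le_sup_left : P ≤ P ⊔ Q) x) hx'
    have e2 := pushHom_apply θ hθ φ x hx
    have e3 := h1 ⟨θ x, hx⟩
    rw [← e1, ← hψe, ← e2, ← e3]
    rfl
  · intro x
    apply hθ
    have hx : θ (x : Γ) ∈ Q.map θ := Subgroup.mem_map_of_mem θ x.2
    have hx' : θ ((Subgroup.inclusion (le_sup_right : Q ≤ P ⊔ Q) x : ↥(P ⊔ Q)) : Γ) ∈ (P ⊔ Q).map θ :=
      Subgroup.mem_map_of_mem θ (Subgroup.inclusion (le_sup_right : Q ≤ P ⊔ Q) x).2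
    have e1 := pushHom_apply θ hθ ψ (Subgroup.inclusion (le_sup_right : Q ≤ P ⊔ Q) x) hx'
    have e3 := h2 ⟨θ x, hx⟩
    rw [← e1, ← hψe]
    exact e3

end Cfsg.Agent.Lib.Helper80.FT
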