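import Mathlib
import Cfsg.Prelude.Def_FusionComponents
import Cfsg.Agent.Lib.Helper80.FT.Core
import Cfsg.Agent.Lib.Helper80.FT.B2
import Cfsg.Agent.Lib.Helper80.FT.B3
import Cfsg.Agent.Lib.Helper80.FT.C1

set_option autoImplicit false
open Cfsg Cfsg.FusionSystem

namespace Cfsg.Agent.Lib.Helper80.FT

universe u v w
variable {Γ : Type u} [Group Γ] {Ω' : Type v} [Group Ω']

theorem central_mpr (θ : Γ →* Ω') (hθ : Function.Injective θ) {S : Subgroup Γ} (F : FusionSystem S)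
    (Q : Subgroup Γ) (h : F.IsCentral Q) : (push θ hθ F).IsCentral (Q.map θ) := by
  obtain ⟨hQ, hext⟩ := h
  refine ⟨Subgroup.map_mono hQ, ?_⟩
  intro P' φ' hφ'
  obtain ⟨P, rfl⟩ := exists_map_of_mem_push θ hθ F hφ'
  obtain ⟨φ, hφ, rfl⟩ := (mem_push_iff θ hθ F φ').1 hφ'
  obtain ⟨ψ, hψ, h1, h2⟩ := hext P φ hφ
  have hsup : (P ⊔ Q).map θ = P.map θ ⊔ Q.map θ := Subgroup.map_sup P Q θ
  let ψ'' : ↥(P.map θ ⊔ Q.map θ) →* Ω' :=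
    (pushHom θ hθ ψ).comp (Subgroup.inclusion (le_of_eq hsup.symm))
  have hψ'' : ψ'' ∈ (push θ hθ F).Hom (P.map θ ⊔ Q.map θ) :=
    hom_cast (push θ hθ F) hsup ((pushHom_mem_iff θ hθ F ψ).2 hψ) ψ'' (fun x hP hQ => rfl)
  refine ⟨ψ'', hψ'', ?_, ?_⟩
  · rintro ⟨y, hy⟩
    obtain ⟨x, hx, rfl⟩ := hy
    have e2 := pushHom_apply θ hθ φ ⟨x, hx⟩ (Subgroup.mem_map_of_mem θ hx)
    have e1 := pushHom_apply θ hθ ψ (Subgroup.inclusion (le_sup_left : P ≤ P ⊔ Q) ⟨x, hx⟩)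
      (Subgroup.mem_map_of_mem θ (Subgroup.inclusion (le_sup_left : P ≤ P ⊔ Q) ⟨x, hx⟩).2)
    rw [e2, ← h1 ⟨x, hx⟩, ← e1]
    rfl
  · rintro ⟨y, hy⟩
    obtain ⟨x, hx, rfl⟩ := hy
    have e1 := pushHom_apply θ hθ ψ (Subgroup.inclusion (le_sup_right : Q ≤ P ⊔ Q) ⟨x, hx⟩)
      (Subgroup.mem_map_of_mem θ (Subgroup.inclusion (le_sup_right : Q ≤ P ⊔ Q) ⟨x, hx⟩).2)
    rw [h2 ⟨x, hx⟩] at e1
    exact e1

end Cfsg.Agent.Lib.Helper80.FT
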