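import Mathlib
import Cfsg.Prelude.Def_FusionComponents
import Cfsg.Agent.Lib.Helper80.FT.Core
import Cfsg.Agent.Lib.Helper80.FT.B2
import Cfsg.Agent.Lib.Helper80.FT.W1a
import Cfsg.Agent.Lib.Helper80.FT.W1b

set_option autoImplicit false
open Cfsg Cfsg.FusionSystem

namespace Cfsg.Agent.Lib.Helper80.FT

universe u v w
variable {Γ : Type u} [Group Γ] {Ω' : Type v} [Group Ω']

theorem center_push (θ : Γ →* Ω') (hθ : Function.Injective θ) {S : Subgroup Γ} (F : FusionSystem S) :
    (push θ hθ F).center = F.center.map θ := by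
  unfold FusionSystem.center
  apply le_antisymm
  · apply sSup_le
    intro Q' hQ'
    have hle : Q' ≤ θ.range := by
      have h1 : Q' ≤ S.map θ := hQ'.1
      exact h1.trans (Subgroup.map_le_range θ S)
    obtain ⟨Q, rfl⟩ := exists_map_eq θ hle
    exact Subgroup.map_mono (le_sSup (central_mp θ hθ F Q hQ'))
  · rw [Subgroup.map_le_iff_le_comap]
    apply sSup_le
    intro Q hQ
    rw [← Subgroup.map_le_iff_le_comap]
    exact le_sSup (central_mpr θ hθ F Q hQ)

end Cfsg.Agent.Lib.Helper80.FT
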