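import Mathlib
import Cfsg.Prelude.Def_FusionComponents

set_option autoImplicit false
open Cfsg Cfsg.FusionSystem

namespace Cfsg.Agent.Lib.Helper80.FT

universe u v w
variable {Γ : Type u} [Group Γ] {Ω' : Type v} [Group Ω']

theorem pResidual_map {A : Type u} {B : Type v} [Group A] [Group B] (f : A ≃* B) (p : ℕ) :
    (pResidual p A).map f.toMonoidHom = pResidual p B := by
  unfold pResidual
  rw [MonoidHom.map_closure]
  congr 1
  ext y
  constructor
  · rintro ⟨x, hx, rfl⟩
    show Nat.Coprime (orderOf (f x)) p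
    rw [MulEquiv.orderOf_eq]
    exact hx
  · intro hy
    refine ⟨f.symm y, ?_, by simp⟩
    show Nat.Coprime (orderOf (f.symm y)) p
    rw [MulEquiv.orderOf_eq]
    exact hy

end Cfsg.Agent.Lib.Helper80.FT
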