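import Mathlib
import Cfsg.Prelude.Def_FusionComponents
import Cfsg.Agent.Lib.Helper80.FT.Core
import Cfsg.Agent.Lib.Helper80.FT.D2a
import Cfsg.Agent.Lib.Helper80.FT.D2
import Cfsg.Agent.Lib.Helper80.FT.W2

set_option autoImplicit false
open Cfsg Cfsg.FusionSystem

namespace Cfsg.Agent.Lib.Helper80.FT

universe u v w
variable {Γ : Type u} [Group Γ] {Ω' : Type v} [Group Ω']

/-- the restriction of `autEquiv` to the automizers -/
noncomputable def W3a_equiv (θ : Γ →* Ω') (hθ : Function.Injective θ) {S : Subgroup Γ} (F : FusionSystem S)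
    (P : Subgroup Γ) : ↥(F.autGroup P) ≃* ↥((push θ hθ F).autGroup (P.map θ)) :=
  ((autEquiv θ hθ P).subgroupMap (F.autGroup P)).trans
    (MulEquiv.subgroupCongr (autGroup_push θ hθ F P).symm)

theorem W3a_equiv_coe (θ : Γ →* Ω') (hθ : Function.Injective θ) {S : Subgroup Γ} (F : FusionSystem S)
    (P : Subgroup Γ) (a : ↥(F.autGroup P)) :
    ((W3a_equiv θ hθ F P a : ↥((push θ hθ F).autGroup (P.map θ))) : MulAut ↥(P.map θ)) =
      autEquiv θ hθ P (a : MulAut P) := rfl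

theorem mem_pResidual_autGroup_iff (θ : Γ →* Ω') (hθ : Function.Injective θ) {S : Subgroup Γ} (F : FusionSystem S)
    (p : ℕ) (P : Subgroup Γ) (a : MulAut P) (ha : a ∈ F.autGroup P)
    (ha' : autEquiv θ hθ P a ∈ (push θ hθ F).autGroup (P.map θ)) :
    (⟨autEquiv θ hθ P a, ha'⟩ : (push θ hθ F).autGroup (P.map θ)) ∈
        pResidual p ↥((push θ hθ F).autGroup (P.map θ)) ↔
      (⟨a, ha⟩ : F.autGroup P) ∈ pResidual p ↥(F.autGroup P) := by
  have h1 : (⟨autEquiv θ hθ P a, ha'⟩ : (push θ hθ F).autGroup (P.map θ)) = W3a_equiv θ hθ F P ⟨a, ha⟩ :=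
    Subtype.ext (W3a_equiv_coe θ hθ F P ⟨a, ha⟩).symm
  rw [h1, ← pResidual_map (W3a_equiv θ hθ F P) p]
  exact Subgroup.mem_map_iff_mem (W3a_equiv θ hθ F P).injective

end Cfsg.Agent.Lib.Helper80.FT
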