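import Mathlib
import Cfsg.Prelude.Def_FusionComponents
import Cfsg.Agent.Lib.Helper80.FT.Core
import Cfsg.Agent.Lib.Helper80.FT.B2
import Cfsg.Agent.Lib.Helper80.FT.D2a
import Cfsg.Agent.Lib.Helper80.FT.D2
import Cfsg.Agent.Lib.Helper80.FT.W3a

set_option autoImplicit false
open Cfsg Cfsg.FusionSystem

namespace Cfsg.Agent.Lib.Helper80.FT

universe u v w
variable {Γ : Type u} [Group Γ] {Ω' : Type v} [Group Ω']

theorem hyperfocal_le (θ : Γ →* Ω') (hθ : Function.Injective θ) {S : Subgroup Γ} (F : FusionSystem S) (p : ℕ) :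
    (push θ hθ F).hyperfocalSubgroup p ≤ (F.hyperfocalSubgroup p).map θ := by
  unfold hyperfocalSubgroup
  rw [Subgroup.closure_le]
  rintro y ⟨Q, α, x, hQ, hα, rfl⟩
  obtain ⟨P, rfl⟩ := exists_map_eq θ (hQ.trans (Subgroup.map_le_range θ S))
  have hP : P ≤ S := (Subgroup.map_le_map_iff_of_injective hθ).1 hQ
  obtain ⟨α, hα0⟩ := α
  obtain ⟨a, rfl⟩ := (autEquiv θ hθ P).surjective α
  have ha : a ∈ F.autGroup P := (mem_autGroup_push_iff θ hθ F P a).1 hα0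
  have ha2 := (mem_pResidual_autGroup_iff θ hθ F p P a ha hα0).1 hα
  obtain ⟨x, hx⟩ := x
  obtain ⟨x0, hx0, rfl⟩ := hx
  refine ⟨(x0)⁻¹ * ((a ⟨x0, hx0⟩ : P) : Γ), ?_, ?_⟩
  · exact Subgroup.subset_closure ⟨P, ⟨a, ha⟩, ⟨x0, hx0⟩, hP, ha2, rfl⟩
  · rw [map_mul, map_inv]
    congr 1
    exact (autEquiv_apply θ hθ P a ⟨x0, hx0⟩ _).symm

end Cfsg.Agent.Lib.Helper80.FT
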