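import Mathlib
import Cfsg.Prelude.Def_FusionComponents
import Cfsg.Agent.Lib.Helper80.FT.Core
import Cfsg.Agent.Lib.Helper80.FT.B2
import Cfsg.Agent.Lib.Helper80.FT.D2a
import Cfsg.Agent.Lib.Helper80.FT.D2
import Cfsg.Agent.Lib.Helper80.FT.W3a

set_option autoImplicit false
open Cfsg Cfsg.FusionSystem

namespace Cfsg.Agent.Lib.Helper80.FT

universe u v w
variable {Γ : Type u} [Group Γ] {Ω' : Type v} [Group Ω']

theorem hyperfocal_ge (θ : Γ →* Ω') (hθ : Function.Injective θ) {S : Subgroup Γ} (F : FusionSystem S) (p : ℕ) :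
    (F.hyperfocalSubgroup p).map θ ≤ (push θ hθ F).hyperfocalSubgroup p := by
  rw [Subgroup.map_le_iff_le_comap]
  unfold hyperfocalSubgroup
  rw [Subgroup.closure_le]
  rintro y ⟨P, ⟨a, ha⟩, ⟨x, hx⟩, hP, hα, rfl⟩
  have ha' : autEquiv θ hθ P a ∈ (push θ hθ F).autGroup (P.map θ) := (mem_autGroup_push_iff θ hθ F P a).2 ha
  have hx' : θ x ∈ P.map θ := Subgroup.mem_map_of_mem θ hx
  refine Subgroup.mem_comap.2 ?_
  refine Subgroup.subset_closure ⟨P.map θ, ⟨autEquiv θ hθ P a, ha'⟩, ⟨θ x, hx'⟩, Subgroup.map_mono hP,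
    (mem_pResidual_autGroup_iff θ hθ F p P a ha ha').2 hα, ?_⟩
  rw [map_mul, map_inv]
  congr 1
  exact (autEquiv_apply θ hθ P a ⟨x, hx⟩ hx').symm

end Cfsg.Agent.Lib.Helper80.FT
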