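import Mathlib
import Cfsg.Prelude.Def_FusionComponents
import Cfsg.Agent.Lib.Helper80.FT.Core
import Cfsg.Agent.Lib.Helper80.FT.B2
import Cfsg.Agent.Lib.Helper80.FT.C1

set_option autoImplicit false
open Cfsg Cfsg.FusionSystem

namespace Cfsg.Agent.Lib.Helper80.FT

universe u v w
variable {Γ : Type u} [Group Γ] {Ω' : Type v} [Group Ω']

theorem subsystem_iff (θ : Γ →* Ω') (hθ : Function.Injective θ) {T U : Subgroup Γ} (E : FusionSystem T)
    (D : FusionSystem U) : (push θ hθ E).IsSubsystemOf (push θ hθ D) ↔ E.IsSubsystemOf D := by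
  constructor
  · intro h P φ hφ
    exact (pushHom_mem_iff θ hθ D φ).1 (h (P.map θ) ((pushHom_mem_iff θ hθ E φ).2 hφ))
  · intro h Q ψ hψ
    obtain ⟨P, rfl⟩ := exists_map_of_mem_push θ hθ E hψ
    obtain ⟨φ, hφ, rfl⟩ := (mem_push_iff θ hθ E ψ).1 hψ
    exact (pushHom_mem_iff θ hθ D φ).2 (h P hφ)

theorem pull_mono (θ : Γ →* Ω') (hθ : Function.Injective θ) {T' U' : Subgroup Ω'} {E' : FusionSystem T'}
    {D' : FusionSystem U'} (h : E'.IsSubsystemOf D') : (pull θ hθ E').IsSubsystemOf (pull θ hθ D') := by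
  intro P φ hφ
  exact (mem_pull_iff θ hθ D' φ).2 (h (P.map θ) ((mem_pull_iff θ hθ E' φ).1 hφ))

end Cfsg.Agent.Lib.Helper80.FT
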