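import Mathlib
import Cfsg.Prelude.Def_FusionComponents
import Cfsg.Agent.Lib.Helper80.FT.Core
import Cfsg.Agent.Lib.Helper80.FT.B2
import Cfsg.Agent.Lib.Helper80.FT.C1

set_option autoImplicit false
open Cfsg Cfsg.FusionSystem

namespace Cfsg.Agent.Lib.Helper80.FT

universe u v w
variable {Γ : Type u} [Group Γ] {Ω' : Type v} [Group Ω']

theorem stronglyClosed_iff (θ : Γ →* Ω') (hθ : Function.Injective θ) {S : Subgroup Γ} (F : FusionSystem S)
    (T : Subgroup Γ) : (push θ hθ F).StronglyClosed (T.map θ) ↔ F.StronglyClosed T := by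
  constructor
  · rintro ⟨h1, h2⟩
    refine ⟨(Subgroup.map_le_map_iff_of_injective hθ).1 h1, fun R hR φ hφ x => ?_⟩
    have h3 := h2 (R.map θ) (Subgroup.map_mono hR) (pushHom θ hθ φ)
      ((pushHom_mem_iff θ hθ F φ).2 hφ) ⟨θ x, Subgroup.mem_map_of_mem θ x.2⟩
    rw [pushHom_apply θ hθ φ x] at h3
    obtain ⟨y, hy, hyx⟩ := h3
    rw [← hθ hyx]
    exact hy
  · rintro ⟨h1, h2⟩
    refine ⟨Subgroup.map_mono h1, fun R' hR' ψ hψ x => ?_⟩
    have hle : R' ≤ θ.range := hR'.trans (Subgroup.map_le_range θ T)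
    obtain ⟨R, rfl⟩ := exists_map_eq θ hle
    have hR : R ≤ T := (Subgroup.map_le_map_iff_of_injective hθ).1 hR'
    obtain ⟨φ, hφ, rfl⟩ := (mem_push_iff θ hθ F ψ).1 hψ
    obtain ⟨x, hx⟩ := x
    obtain ⟨y, hy, rfl⟩ := hx
    have := pushHom_apply θ hθ φ ⟨y, hy⟩ (Subgroup.mem_map_of_mem θ hy)
    rw [this]
    exact Subgroup.mem_map_of_mem θ (h2 R hR φ hφ ⟨y, hy⟩)

end Cfsg.Agent.Lib.Helper80.FT
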