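import Mathlib
import Cfsg.Prelude.Def_FusionComponents

set_option autoImplicit false
open Cfsg Cfsg.FusionSystem

namespace Cfsg.Agent.Lib.Helper80.FT

universe u v w
variable {Γ : Type u} [Group Γ] {Ω' : Type v} [Group Ω']

def InvClause {Ω : Type u} [Group Ω] {T S : Subgroup Ω} (E : FusionSystem T) (F : FusionSystem S) : Prop :=
  ∀ (P : Subgroup Ω) (hPT : P ≤ T) (φ : P →* Ω), φ ∈ E.Hom P → ∀ α ∈ F.autGroup T,
      ∃ χ ∈ E.Hom ((P.subgroupOf T).map (T.subtype.comp α.toMonoidHom)),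
        ∀ (x : P) (hφx : φ x ∈ T)
          (hαx : ((α ⟨x, hPT x.2⟩ : T) : Ω) ∈ (P.subgroupOf T).map (T.subtype.comp α.toMonoidHom)),
          χ ⟨(α ⟨x, hPT x.2⟩ : T), hαx⟩ = ((α ⟨φ x, hφx⟩ : T) : Ω)

def FratClause {Ω : Type u} [Group Ω] {T S : Subgroup Ω} (E : FusionSystem T) (F : FusionSystem S) : Prop :=
  ∀ (P : Subgroup Ω), P ≤ T → ∀ (φ : P →* Ω), φ ∈ F.Hom P →
      ∃ α ∈ F.autGroup T, ∃ φ₀ ∈ E.Hom P, ∀ (x : P) (hx : φ₀ x ∈ T), φ x = ((α ⟨φ₀ x, hx⟩ : T) : Ω)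

def ExtClause {Ω : Type u} [Group Ω] {T S : Subgroup Ω} (E : FusionSystem T) (F : FusionSystem S) : Prop :=
  ∀ α ∈ E.autGroup T, ∃ β ∈ F.autGroup (T ⊔ centralizerIn S T),
      (∀ x : T, ((β (Subgroup.inclusion le_sup_left x) : ↥(T ⊔ centralizerIn S T)) : Ω) = ((α x : T) : Ω)) ∧
      ∀ c : ↥(T ⊔ centralizerIn S T), (c : Ω) ∈ centralizerIn S T →
        (c : Ω)⁻¹ * ((β c : ↥(T ⊔ centralizerIn S T)) : Ω) ∈ T ⊓ Subgroup.centralizer (T : Set Ω)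

theorem invariantIn_iff_clauses {Ω : Type u} [Group Ω] {T S : Subgroup Ω} (E : FusionSystem T) (F : FusionSystem S) :
    E.IsInvariantIn F ↔ E.IsSubsystemOf F ∧ F.StronglyClosed T ∧ InvClause E F ∧ FratClause E F := Iff.rfl

theorem normalIn_iff_clauses {Ω : Type u} [Group Ω] {T S : Subgroup Ω} (E : FusionSystem T) (F : FusionSystem S)
    (p : ℕ) : E.IsNormalIn F p ↔ (E.IsSaturated p ∧ F.IsSaturated p ∧ E.IsInvariantIn F) ∧ ExtClause E F := Iff.rfl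

end Cfsg.Agent.Lib.Helper80.FT
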