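import Mathlib
import Cfsg.Prelude.Def_FusionComponents
import Cfsg.Agent.Lib.Helper80.FT.Core
import Cfsg.Agent.Lib.Helper80.FT.N0
import Cfsg.Agent.Lib.Helper80.FT.B2
import Cfsg.Agent.Lib.Helper80.FT.B3
import Cfsg.Agent.Lib.Helper80.FT.C1
import Cfsg.Agent.Lib.Helper80.FT.D2a
import Cfsg.Agent.Lib.Helper80.FT.D2

set_option autoImplicit false
open Cfsg Cfsg.FusionSystem

namespace Cfsg.Agent.Lib.Helper80.FT

universe u v w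
variable {Γ : Type u} [Group Γ] {Ω' : Type v} [Group Ω']

/-- the image of `P` under `α`, pushed along `θ` -/
theorem N1a_map_eq (θ : Γ →* Ω') (hθ : Function.Injective θ) {T : Subgroup Γ} (P : Subgroup Γ)
    (hPT : P ≤ T) (α : MulAut T) :
    ((P.map θ).subgroupOf (T.map θ)).map
        ((T.map θ).subtype.comp (autEquiv θ hθ T α).toMonoidHom) =
      ((P.subgroupOf T).map (T.subtype.comp α.toMonoidHom)).map θ := by
  ext z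
  constructor
  · rintro ⟨⟨y, hyT⟩, hyP, rfl⟩
    obtain ⟨x0, hx0, hxy⟩ : y ∈ P.map θ := hyP
    subst hxy
    refine ⟨((α ⟨x0, hPT hx0⟩ : T) : Γ), ⟨⟨x0, hPT hx0⟩, hx0, rfl⟩, ?_⟩
    exact (autEquiv_apply θ hθ T α ⟨x0, hPT hx0⟩ hyT).symm
  · rintro ⟨w, ⟨⟨x0, hx0T⟩, hx0P, rfl⟩, rfl⟩
    have hx0P' : x0 ∈ P := hx0P
    refine ⟨⟨θ x0, Subgroup.mem_map_of_mem θ hx0T⟩, Subgroup.mem_map_of_mem θ hx0P', ?_⟩
    exact autEquiv_apply θ hθ T α ⟨x0, hx0T⟩ _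

theorem invClause_mp (θ : Γ →* Ω') (hθ : Function.Injective θ) {T S : Subgroup Γ} (E : FusionSystem T)
    (F : FusionSystem S) (h : InvClause (push θ hθ E) (push θ hθ F)) : InvClause E F := by
  intro P hPT φ hφ α hα
  obtain ⟨χ', hχ', hprop⟩ := h (P.map θ) (Subgroup.map_mono hPT) (pushHom θ hθ φ)
    ((pushHom_mem_iff θ hθ E φ).2 hφ) (autEquiv θ hθ T α) ((mem_autGroup_push_iff θ hθ F T α).2 hα)
  have hQ := N1a_map_eq θ hθ P hPT α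
  have hψ : χ'.comp (Subgroup.inclusion hQ.symm.le) ∈
      (push θ hθ E).Hom (((P.subgroupOf T).map (T.subtype.comp α.toMonoidHom)).map θ) :=
    hom_cast (push θ hθ E) hQ hχ' _ (fun x hP hQ' => rfl)
  obtain ⟨χ, hχ, hχeq⟩ := (mem_push_iff θ hθ E _).1 hψ
  refine ⟨χ, hχ, ?_⟩
  intro x hφx hαx
  apply hθ
  have h1 : θ (χ ⟨(α ⟨x, hPT x.2⟩ : T), hαx⟩) =
      pushHom θ hθ χ ⟨θ ((α ⟨x, hPT x.2⟩ : T) : Γ), Subgroup.mem_map_of_mem θ hαx⟩ :=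
    (pushHom_apply θ hθ χ ⟨(α ⟨x, hPT x.2⟩ : T), hαx⟩ _).symm
  rw [h1, ← hχeq]
  have hxm : θ x ∈ P.map θ := Subgroup.mem_map_of_mem θ x.2
  have e1 : pushHom θ hθ φ ⟨θ x, hxm⟩ = θ (φ x) := pushHom_apply θ hθ φ x hxm
  have hφx' : pushHom θ hθ φ ⟨θ x, hxm⟩ ∈ T.map θ := by
    rw [e1]; exact Subgroup.mem_map_of_mem θ hφx
  have e2 : ((autEquiv θ hθ T α ⟨θ x, Subgroup.map_mono hPT hxm⟩ : ↥(T.map θ)) : Ω') =
      θ ((α ⟨x, hPT x.2⟩ : T) : Γ) := autEquiv_apply θ hθ T α ⟨x, hPT x.2⟩ _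
  have hαx' : ((autEquiv θ hθ T α ⟨θ x, Subgroup.map_mono hPT hxm⟩ : ↥(T.map θ)) : Ω') ∈
      ((P.map θ).subgroupOf (T.map θ)).map
        ((T.map θ).subtype.comp (autEquiv θ hθ T α).toMonoidHom) := by
    rw [hQ, e2]; exact Subgroup.mem_map_of_mem θ hαx
  have h2 := hprop ⟨θ x, hxm⟩ hφx' hαx'
  have e3 : ((autEquiv θ hθ T α ⟨pushHom θ hθ φ ⟨θ x, hxm⟩, hφx'⟩ : ↥(T.map θ)) : Ω') =
      θ ((α ⟨φ x, hφx⟩ : T) : Γ) := by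
    have : (⟨pushHom θ hθ φ ⟨θ x, hxm⟩, hφx'⟩ : ↥(T.map θ)) =
        ⟨θ ((⟨φ x, hφx⟩ : T) : Γ), Subgroup.mem_map_of_mem θ hφx⟩ := Subtype.ext e1
    rw [this]
    exact autEquiv_apply θ hθ T α ⟨φ x, hφx⟩ _
  rw [← e3, ← h2]
  show χ' _ = χ' _
  congr 1
  exact Subtype.ext e2.symm

end Cfsg.Agent.Lib.Helper80.FT
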