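import Mathlib
import Cfsg.Prelude.Def_FusionComponents
import Cfsg.Agent.Lib.Helper80.FT.Core
import Cfsg.Agent.Lib.Helper80.FT.N0
import Cfsg.Agent.Lib.Helper80.FT.B2
import Cfsg.Agent.Lib.Helper80.FT.B3
import Cfsg.Agent.Lib.Helper80.FT.C1
import Cfsg.Agent.Lib.Helper80.FT.D2a
import Cfsg.Agent.Lib.Helper80.FT.D2
import Cfsg.Agent.Lib.Helper80.FT.N1a

set_option autoImplicit false
open Cfsg Cfsg.FusionSystem

namespace Cfsg.Agent.Lib.Helper80.FT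

universe u v w
variable {Γ : Type u} [Group Γ] {Ω' : Type v} [Group Ω']

theorem invClause_mpr (θ : Γ →* Ω') (hθ : Function.Injective θ) {T S : Subgroup Γ} (E : FusionSystem T)
    (F : FusionSystem S) (h : InvClause E F) : InvClause (push θ hθ E) (push θ hθ F) := by
  intro P' hP'T φ' hφ' α' hα'
  obtain ⟨P, rfl⟩ := exists_map_of_mem_push θ hθ E hφ'
  obtain ⟨φ, hφ, rfl⟩ := (mem_push_iff θ hθ E φ').1 hφ'
  rw [autGroup_push] at hα'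
  obtain ⟨α, hα, rfl⟩ := hα'
  have hPT : P ≤ T := (Subgroup.map_le_map_iff_of_injective hθ).1 hP'T
  obtain ⟨χ, hχ, hprop⟩ := h P hPT φ hφ α hα
  have hQ := N1a_map_eq θ hθ P hPT α
  refine ⟨(pushHom θ hθ χ).comp (Subgroup.inclusion hQ.le), ?_, ?_⟩
  · exact hom_cast (push θ hθ E) hQ.symm ((pushHom_mem_iff θ hθ E χ).2 hχ) _
      (fun x hP hQ' => rfl)
  · rintro ⟨x', hx'⟩ hφx' hαx'
    obtain ⟨x, hx, rfl⟩ := hx'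
    have hxm : θ x ∈ P.map θ := Subgroup.mem_map_of_mem θ hx
    have e1 : pushHom θ hθ φ ⟨θ x, hxm⟩ = θ (φ ⟨x, hx⟩) := pushHom_apply θ hθ φ ⟨x, hx⟩ hxm
    have hφx : φ ⟨x, hx⟩ ∈ T := by
      have h3 : θ (φ ⟨x, hx⟩) ∈ T.map θ := by rw [← e1]; exact hφx'
      exact (Subgroup.mem_map_iff_mem hθ).1 h3
    have e2 : ((autEquiv θ hθ T α ⟨θ x, hP'T hxm⟩ : ↥(T.map θ)) : Ω') =
        θ ((α ⟨x, hPT hx⟩ : T) : Γ) := autEquiv_apply θ hθ T α ⟨x, hPT hx⟩ _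
    have hαx : ((α ⟨x, hPT hx⟩ : T) : Γ) ∈ (P.subgroupOf T).map (T.subtype.comp α.toMonoidHom) :=
      ⟨⟨x, hPT hx⟩, hx, rfl⟩
    have h2 := hprop ⟨x, hx⟩ hφx hαx
    have e3 : ((autEquiv θ hθ T α ⟨pushHom θ hθ φ ⟨θ x, hxm⟩, hφx'⟩ : ↥(T.map θ)) : Ω') =
        θ ((α ⟨φ ⟨x, hx⟩, hφx⟩ : T) : Γ) := by
      have : (⟨pushHom θ hθ φ ⟨θ x, hxm⟩, hφx'⟩ : ↥(T.map θ)) =
          ⟨θ ((⟨φ ⟨x, hx⟩, hφx⟩ : T) : Γ), Subgroup.mem_map_of_mem θ hφx⟩ := Subtype.ext e1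
      rw [this]
      exact autEquiv_apply θ hθ T α ⟨φ ⟨x, hx⟩, hφx⟩ _
    refine Eq.trans ?_ e3.symm
    rw [← h2]
    have e4 : pushHom θ hθ χ ⟨θ ((α ⟨x, hPT hx⟩ : T) : Γ), Subgroup.mem_map_of_mem θ hαx⟩ =
        θ (χ ⟨(α ⟨x, hPT hx⟩ : T), hαx⟩) := pushHom_apply θ hθ χ ⟨(α ⟨x, hPT hx⟩ : T), hαx⟩ _
    rw [← e4]
    show pushHom θ hθ χ _ = pushHom θ hθ χ _
    congr 1
    exact Subtype.ext e2

end Cfsg.Agent.Lib.Helper80.FT
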