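import Mathlib
import Cfsg.Prelude.Def_FusionComponents
import Cfsg.Agent.Lib.Helper80.FT.Core
import Cfsg.Agent.Lib.Helper80.FT.N0
import Cfsg.Agent.Lib.Helper80.FT.B2
import Cfsg.Agent.Lib.Helper80.FT.B3
import Cfsg.Agent.Lib.Helper80.FT.C1
import Cfsg.Agent.Lib.Helper80.FT.D2a
import Cfsg.Agent.Lib.Helper80.FT.D2

set_option autoImplicit false
open Cfsg Cfsg.FusionSystem

namespace Cfsg.Agent.Lib.Helper80.FT

universe u v w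
variable {Γ : Type u} [Group Γ] {Ω' : Type v} [Group Ω']

theorem fratClause_mp (θ : Γ →* Ω') (hθ : Function.Injective θ) {T S : Subgroup Γ} (E : FusionSystem T)
    (F : FusionSystem S) (h : FratClause (push θ hθ E) (push θ hθ F)) : FratClause E F := by
  intro P hP φ hφ
  obtain ⟨α', hα', φ₀', hφ₀', hh⟩ := h (P.map θ) (Subgroup.map_mono hP) (pushHom θ hθ φ)
    ((pushHom_mem_iff θ hθ F φ).2 hφ)
  obtain ⟨α, rfl⟩ := (autEquiv θ hθ T).surjective α'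
  obtain ⟨φ₀, hφ₀, rfl⟩ := (mem_push_iff θ hθ E φ₀').1 hφ₀'
  refine ⟨α, (mem_autGroup_push_iff θ hθ F T α).1 hα', φ₀, hφ₀, ?_⟩
  intro x hx
  apply hθ
  have hx' : θ x ∈ P.map θ := Subgroup.mem_map_of_mem θ x.2
  have e0 : pushHom θ hθ φ₀ ⟨θ x, hx'⟩ = θ (φ₀ x) := pushHom_apply θ hθ φ₀ x hx'
  have hx2 : θ (φ₀ x) ∈ T.map θ := Subgroup.mem_map_of_mem θ hx
  have hx3 : pushHom θ hθ φ₀ ⟨θ x, hx'⟩ ∈ T.map θ := by rw [e0]; exact hx2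
  have h1 := hh ⟨θ x, hx'⟩ hx3
  have e1 : (⟨pushHom θ hθ φ₀ ⟨θ x, hx'⟩, hx3⟩ : ↥(T.map θ)) = ⟨θ (φ₀ x), hx2⟩ := Subtype.ext e0
  rw [e1, pushHom_apply θ hθ φ x hx'] at h1
  rw [h1]
  exact autEquiv_apply θ hθ T α ⟨φ₀ x, hx⟩ hx2

end Cfsg.Agent.Lib.Helper80.FT
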