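import Mathlib
import Cfsg.Prelude.Def_FusionComponents
import Cfsg.Agent.Lib.Helper80.FT.Core
import Cfsg.Agent.Lib.Helper80.FT.N0
import Cfsg.Agent.Lib.Helper80.FT.B2
import Cfsg.Agent.Lib.Helper80.FT.B3
import Cfsg.Agent.Lib.Helper80.FT.C1
import Cfsg.Agent.Lib.Helper80.FT.D2a
import Cfsg.Agent.Lib.Helper80.FT.D2

set_option autoImplicit false
open Cfsg Cfsg.FusionSystem

namespace Cfsg.Agent.Lib.Helper80.FT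

universe u v w
variable {Γ : Type u} [Group Γ] {Ω' : Type v} [Group Ω']

theorem fratClause_mpr (θ : Γ →* Ω') (hθ : Function.Injective θ) {T S : Subgroup Γ} (E : FusionSystem T)
    (F : FusionSystem S) (h : FratClause E F) : FratClause (push θ hθ E) (push θ hθ F) := by
  intro P' hP' φ' hφ'
  obtain ⟨P, rfl⟩ := exists_map_of_mem_push θ hθ F hφ'
  have hP : P ≤ T := (Subgroup.map_le_map_iff_of_injective hθ).1 hP'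
  obtain ⟨φ, hφ, rfl⟩ := (mem_push_iff θ hθ F φ').1 hφ'
  obtain ⟨α, hα, φ₀, hφ₀, hh⟩ := h P hP φ hφ
  refine ⟨autEquiv θ hθ T α, (mem_autGroup_push_iff θ hθ F T α).2 hα, pushHom θ hθ φ₀,
    (pushHom_mem_iff θ hθ E φ₀).2 hφ₀, ?_⟩
  rintro ⟨x', hx'⟩ hx
  obtain ⟨x, hxP, rfl⟩ := Subgroup.mem_map.1 hx'
  have e0 : pushHom θ hθ φ₀ ⟨θ x, hx'⟩ = θ (φ₀ ⟨x, hxP⟩) := pushHom_apply θ hθ φ₀ ⟨x, hxP⟩ hx'
  have hx2 : θ (φ₀ ⟨x, hxP⟩) ∈ T.map θ := by rw [← e0]; exact hx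
  have hxT : φ₀ ⟨x, hxP⟩ ∈ T := by
    obtain ⟨y, hy, hy'⟩ := Subgroup.mem_map.1 hx2
    rw [← hθ hy']
    exact hy
  have e1 : (⟨pushHom θ hθ φ₀ ⟨θ x, hx'⟩, hx⟩ : ↥(T.map θ)) = ⟨θ (φ₀ ⟨x, hxP⟩), hx2⟩ := Subtype.ext e0
  rw [e1, pushHom_apply θ hθ φ ⟨x, hxP⟩ hx', hh ⟨x, hxP⟩ hxT]
  exact (autEquiv_apply θ hθ T α ⟨φ₀ ⟨x, hxP⟩, hxT⟩ hx2).symm

end Cfsg.Agent.Lib.Helper80.FT
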