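import Mathlib
import Cfsg.Prelude.Def_FusionComponents
import Cfsg.Agent.Lib.Helper80.FT.Core0

set_option autoImplicit false
open Cfsg Cfsg.FusionSystem

namespace Cfsg.Agent.Lib.Helper80.FT

universe u v w
variable {Γ : Type u} [Group Γ] {Ω' : Type v} [Group Ω']

theorem centralizerIn_map (θ : Γ →* Ω') (hθ : Function.Injective θ) (S T : Subgroup Γ) :
    centralizerIn (S.map θ) (T.map θ) = (centralizerIn S T).map θ := by
  ext y
  simp only [centralizerIn, Subgroup.mem_inf, Subgroup.mem_map, Subgroup.mem_centralizer_iff,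
    SetLike.mem_coe]
  constructor
  · rintro ⟨⟨x, hxS, rfl⟩, hc⟩
    refine ⟨x, ⟨hxS, fun t ht => ?_⟩, rfl⟩
    apply hθ
    rw [map_mul, map_mul]
    exact hc (θ t) ⟨t, ht, rfl⟩
  · rintro ⟨x, ⟨hxS, hc⟩, rfl⟩
    refine ⟨⟨x, hxS, rfl⟩, ?_⟩
    rintro _ ⟨t, ht, rfl⟩
    rw [← map_mul, ← map_mul, hc t ht]

theorem sup_centralizerIn_map (θ : Γ →* Ω') (hθ : Function.Injective θ) (S T : Subgroup Γ) :
    T.map θ ⊔ centralizerIn (S.map θ) (T.map θ) = (T ⊔ centralizerIn S T).map θ := by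
  rw [centralizerIn_map θ hθ, Subgroup.map_sup]

theorem inf_centralizer_map (θ : Γ →* Ω') (hθ : Function.Injective θ) (T : Subgroup Γ) (x : Γ) :
    θ x ∈ T.map θ ⊓ Subgroup.centralizer ((T.map θ : Subgroup Ω') : Set Ω') ↔
      x ∈ T ⊓ Subgroup.centralizer (T : Set Γ) := by
  have h := centralizerIn_map θ hθ T T
  show θ x ∈ centralizerIn (T.map θ) (T.map θ) ↔ x ∈ centralizerIn T T
  rw [h]
  exact Subgroup.mem_map_iff_mem hθ

end Cfsg.Agent.Lib.Helper80.FT
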