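import Mathlib
import Cfsg.Prelude.Def_FusionComponents
import Cfsg.Agent.Lib.Helper80.FT.Core
import Cfsg.Agent.Lib.Helper80.FT.N0
import Cfsg.Agent.Lib.Helper80.FT.N3
import Cfsg.Agent.Lib.Helper80.FT.B2
import Cfsg.Agent.Lib.Helper80.FT.B3
import Cfsg.Agent.Lib.Helper80.FT.C1
import Cfsg.Agent.Lib.Helper80.FT.D2a
import Cfsg.Agent.Lib.Helper80.FT.D2

set_option autoImplicit false
open Cfsg Cfsg.FusionSystem

namespace Cfsg.Agent.Lib.Helper80.FT

universe u v w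
variable {Γ : Type u} [Group Γ] {Ω' : Type v} [Group Ω']

theorem N4a_aux {Ω : Type u} [Group Ω] {T S : Subgroup Ω} (E : FusionSystem T) (F : FusionSystem S) :
    ExtClause E F ↔ ∀ (R : Subgroup Ω) (_ : R = T ⊔ centralizerIn S T) (hle : T ≤ R),
      ∀ α ∈ E.autGroup T, ∃ β ∈ F.autGroup R,
        (∀ x : T, ((β (Subgroup.inclusion hle x) : R) : Ω) = ((α x : T) : Ω)) ∧
        ∀ c : R, (c : Ω) ∈ centralizerIn S T →
          (c : Ω)⁻¹ * ((β c : R) : Ω) ∈ T ⊓ Subgroup.centralizer (T : Set Ω) := by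
  constructor
  · intro h R hR hle
    subst hR
    exact h
  · intro h
    exact h _ rfl le_sup_left

theorem extClause_mp (θ : Γ →* Ω') (hθ : Function.Injective θ) {T S : Subgroup Γ} (E : FusionSystem T)
    (F : FusionSystem S) (h : ExtClause (push θ hθ E) (push θ hθ F)) : ExtClause E F := by
  rw [N4a_aux] at h
  have hle : T.map θ ≤ (T ⊔ centralizerIn S T).map θ := Subgroup.map_mono le_sup_left
  intro α hα
  obtain ⟨β', hβ', h1, h2⟩ := h ((T ⊔ centralizerIn S T).map θ) (sup_centralizerIn_map θ hθ S T).symm hle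
    (autEquiv θ hθ T α) ((mem_autGroup_push_iff θ hθ E T α).2 hα)
  obtain ⟨β, rfl⟩ := (autEquiv θ hθ (T ⊔ centralizerIn S T)).surjective β'
  refine ⟨β, (mem_autGroup_push_iff θ hθ F _ β).1 hβ', ?_, ?_⟩
  · rintro ⟨x, hx⟩
    apply hθ
    have hx' : θ x ∈ T.map θ := Subgroup.mem_map_of_mem θ hx
    have e1 := autEquiv_apply θ hθ (T ⊔ centralizerIn S T) β (Subgroup.inclusion le_sup_left ⟨x, hx⟩)
      (hle hx')
    have e2 := autEquiv_apply θ hθ T α ⟨x, hx⟩ hx'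
    rw [← e1, ← e2]
    exact h1 ⟨θ x, hx'⟩
  · rintro ⟨c, hc⟩ hcc
    have hc' : θ c ∈ (T ⊔ centralizerIn S T).map θ := Subgroup.mem_map_of_mem θ hc
    have hcc' : θ c ∈ centralizerIn (S.map θ) (T.map θ) := by
      rw [centralizerIn_map θ hθ]
      exact Subgroup.mem_map_of_mem θ hcc
    have h3 := h2 ⟨θ c, hc'⟩ hcc'
    have e1 := autEquiv_apply θ hθ (T ⊔ centralizerIn S T) β ⟨c, hc⟩ hc'
    rw [← inf_centralizer_map θ hθ, map_mul, map_inv, ← e1]
    exact h3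

end Cfsg.Agent.Lib.Helper80.FT
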