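import Mathlib
import Cfsg.Prelude.Def_FusionComponents
import Cfsg.Agent.Lib.Helper80.FT.Core
import Cfsg.Agent.Lib.Helper80.FT.N0
import Cfsg.Agent.Lib.Helper80.FT.C3
import Cfsg.Agent.Lib.Helper80.FT.D8
import Cfsg.Agent.Lib.Helper80.FT.D9
import Cfsg.Agent.Lib.Helper80.FT.N1a
import Cfsg.Agent.Lib.Helper80.FT.N1b
import Cfsg.Agent.Lib.Helper80.FT.N2a
import Cfsg.Agent.Lib.Helper80.FT.N2b
import Cfsg.Agent.Lib.Helper80.FT.N4a
import Cfsg.Agent.Lib.Helper80.FT.N4b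

set_option autoImplicit false
open Cfsg Cfsg.FusionSystem

namespace Cfsg.Agent.Lib.Helper80.FT

universe u v w
variable {Γ : Type u} [Group Γ] {Ω' : Type v} [Group Ω']

theorem normalIn_iff (θ : Γ →* Ω') (hθ : Function.Injective θ) {T S : Subgroup Γ} (E : FusionSystem T)
    (F : FusionSystem S) (p : ℕ) : (push θ hθ E).IsNormalIn (push θ hθ F) p ↔ E.IsNormalIn F p := by
  rw [normalIn_iff_clauses, normalIn_iff_clauses, invariantIn_iff_clauses, invariantIn_iff_clauses,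
    sat_iff, sat_iff, subsystem_iff, stronglyClosed_iff]
  exact ⟨fun ⟨⟨h1, h2, h3, h4, h5, h6⟩, h7⟩ =>
      ⟨⟨h1, h2, h3, h4, invClause_mp θ hθ E F h5, fratClause_mp θ hθ E F h6⟩, extClause_mp θ hθ E F h7⟩,
    fun ⟨⟨h1, h2, h3, h4, h5, h6⟩, h7⟩ =>
      ⟨⟨h1, h2, h3, h4, invClause_mpr θ hθ E F h5, fratClause_mpr θ hθ E F h6⟩, extClause_mpr θ hθ E F h7⟩⟩

end Cfsg.Agent.Lib.Helper80.FT
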