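import Mathlib
import Cfsg.Prelude.Def_FusionComponents
import Cfsg.Agent.Lib.Helper80.FT.Core
import Cfsg.Agent.Lib.Helper80.FT.B1
import Cfsg.Agent.Lib.Helper80.FT.B2
import Cfsg.Agent.Lib.Helper80.FT.C1
import Cfsg.Agent.Lib.Helper80.FT.D8
import Cfsg.Agent.Lib.Helper80.FT.N5

set_option autoImplicit false
open Cfsg Cfsg.FusionSystem

namespace Cfsg.Agent.Lib.Helper80.FT

universe u v w
variable {Γ : Type u} [Group Γ] {Ω' : Type v} [Group Ω']

theorem simple_mp (θ : Γ →* Ω') (hθ : Function.Injective θ) {S : Subgroup Γ} (F : FusionSystem S) (p : ℕ)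
    (h : (push θ hθ F).IsSimple p) : F.IsSimple p := by
  obtain ⟨h1, h2, h3⟩ := h
  refine ⟨(sat_iff θ hθ F p).1 h1, ?_, ?_⟩
  · intro hS
    apply h2
    rw [hS, Subgroup.map_bot]
  · intro T E hE
    rcases h3 (T.map θ) (push θ hθ E) ((normalIn_iff θ hθ E F p).2 hE) with h4 | ⟨h4, h5⟩
    · left
      exact (Subgroup.map_eq_bot_iff_of_injective T hθ).1 h4
    · right
      refine ⟨Subgroup.map_injective hθ h4, ?_⟩
      intro P
      ext φ
      rw [← pushHom_mem_iff θ hθ E φ, ← pushHom_mem_iff θ hθ F φ, h5]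

end Cfsg.Agent.Lib.Helper80.FT
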