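import Mathlib
import Cfsg.Prelude.Def_FusionComponents
import Cfsg.Agent.Lib.Helper80.FT.Core
import Cfsg.Agent.Lib.Helper80.FT.B1
import Cfsg.Agent.Lib.Helper80.FT.B2
import Cfsg.Agent.Lib.Helper80.FT.B3
import Cfsg.Agent.Lib.Helper80.FT.C1
import Cfsg.Agent.Lib.Helper80.FT.C2a
import Cfsg.Agent.Lib.Helper80.FT.D8
import Cfsg.Agent.Lib.Helper80.FT.N5

set_option autoImplicit false
open Cfsg Cfsg.FusionSystem

namespace Cfsg.Agent.Lib.Helper80.FT

universe u v w
variable {Γ : Type u} [Group Γ] {Ω' : Type v} [Group Ω']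

theorem simple_mpr (θ : Γ →* Ω') (hθ : Function.Injective θ) {S : Subgroup Γ} (F : FusionSystem S) (p : ℕ)
    (h : F.IsSimple p) : (push θ hθ F).IsSimple p := by
  refine ⟨(sat_iff θ hθ F p).2 h.1, ?_, ?_⟩
  · intro hb
    exact h.2.1 ((Subgroup.map_eq_bot_iff_of_injective S hθ).1 hb)
  · intro T' E' hN
    have hinv := ((normalIn_iff_clauses E' (push θ hθ F) p).1 hN).1.2.2
    have hsub := ((invariantIn_iff_clauses E' (push θ hθ F)).1 hinv).1
    have hT' : T' ≤ θ.range := (le_of_subsystem hsub).trans (Subgroup.map_le_range θ S)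
    have hsame := push_pull θ hθ E' hT'
    have hN2 : (push θ hθ (pull θ hθ E')).IsNormalIn (push θ hθ F) p :=
      hsame.symm.elim (fun T E => E.IsNormalIn (push θ hθ F) p) hN
    have hN3 := (normalIn_iff θ hθ (pull θ hθ E') F p).1 hN2
    rcases h.2.2 _ _ hN3 with hb | ⟨hS, hHom⟩
    · left
      rw [← hsame.1, hb, Subgroup.map_bot]
    · right
      refine ⟨by rw [← hsame.1, hS], ?_⟩
      intro P'
      rw [← hsame.2 P']
      ext ψ
      constructor
      · rintro ⟨P, φ, hφ, rest⟩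
        exact ⟨P, φ, hHom P ▸ hφ, rest⟩
      · rintro ⟨P, φ, hφ, rest⟩
        exact ⟨P, φ, (hHom P).symm ▸ hφ, rest⟩

end Cfsg.Agent.Lib.Helper80.FT
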