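import Mathlib
import Cfsg.Prelude.Def_FusionComponents
import Cfsg.Agent.Lib.Helper80.FT.Core0
import Cfsg.Agent.Lib.Helper80.FT.B2

set_option autoImplicit false
open Cfsg Cfsg.FusionSystem

namespace Cfsg.Agent.Lib.Helper80.FT

universe u v w
variable {Γ : Type u} [Group Γ] {Ω' : Type v} [Group Ω']

theorem W5a_key {A : Type u} [Group A] {A' : Type v} [Group A'] (θ : Γ →* Ω') (hθ : Function.Injective θ)
    (e : A →* A') {S : Subgroup Γ} (q : S →* A) (q' : ↥(S.map θ) →* A')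
    (hq : ∀ s : S, e (q s) = q' (S.equivMapOfInjective θ hθ s)) (s : Γ) (hs : s ∈ S)
    (h' : θ s ∈ S.map θ) : q' ⟨θ s, h'⟩ = e (q ⟨s, hs⟩) := by
  rw [hq]
  congr 1

theorem preimageAlong_map {A : Type u} [Group A] {A' : Type v} [Group A'] (θ : Γ →* Ω') (hθ : Function.Injective θ)
    (e : A →* A') (he : Function.Injective e) {S : Subgroup Γ} (q : S →* A) (q' : ↥(S.map θ) →* A')
    (hq : ∀ s : S, e (q s) = q' (S.equivMapOfInjective θ hθ s)) (P' : Subgroup A) :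
    preimageAlong q' (P'.map e) = (preimageAlong q P').map θ := by
  unfold preimageAlong
  ext y
  constructor
  · rintro ⟨⟨z, hz⟩, hmem, rfl⟩
    obtain ⟨s, hs, rfl⟩ := hz
    have hmem' : q' ⟨θ s, Subgroup.mem_map_of_mem θ hs⟩ ∈ P'.map e := hmem
    rw [W5a_key θ hθ e q q' hq s hs] at hmem'
    have h1 : q ⟨s, hs⟩ ∈ P' := (Subgroup.mem_map_iff_mem he).1 hmem'
    exact ⟨s, ⟨⟨s, hs⟩, h1, rfl⟩, rfl⟩
  · rintro ⟨_, ⟨s, hs, rfl⟩, rfl⟩
    have hs' : q s ∈ P' := hs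
    refine ⟨⟨θ s, Subgroup.mem_map_of_mem θ s.2⟩, ?_, rfl⟩
    show q' ⟨θ s, _⟩ ∈ P'.map e
    rw [W5a_key θ hθ e q q' hq s s.2]
    exact Subgroup.mem_map_of_mem e hs'

end Cfsg.Agent.Lib.Helper80.FT
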