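import Mathlib
import Cfsg.Prelude.Def_FusionComponents
import Cfsg.Agent.Lib.Helper80.FT.Core0
import Cfsg.Agent.Lib.Helper80.FT.B2

set_option autoImplicit false
open Cfsg Cfsg.FusionSystem

namespace Cfsg.Agent.Lib.Helper80.FT

universe u v w
variable {Γ : Type u} [Group Γ] {Ω' : Type v} [Group Ω']

theorem W5b_key {A : Type u} [Group A] {A' : Type v} [Group A'] (θ : Γ →* Ω') (hθ : Function.Injective θ)
    (e : A →* A') {S : Subgroup Γ} (q : S →* A) (q' : ↥(S.map θ) →* A')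
    (hq : ∀ s : S, e (q s) = q' (S.equivMapOfInjective θ hθ s)) (s : Γ) (hs : s ∈ S)
    (h' : θ s ∈ S.map θ) : q' ⟨θ s, h'⟩ = e (q ⟨s, hs⟩) := by
  rw [hq]
  congr 1

theorem inducedAlong_iff {A : Type u} [Group A] {A' : Type v} [Group A'] (θ : Γ →* Ω') (hθ : Function.Injective θ)
    (e : A →* A') (he : Function.Injective e) {S : Subgroup Γ} (q : S →* A) (q' : ↥(S.map θ) →* A')
    (hq : ∀ s : S, e (q s) = q' (S.equivMapOfInjective θ hθ s)) {P : Subgroup Γ} (φ : P →* Γ)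
    {P' : Subgroup A} (φ' : P' →* A) :
    InducedAlong q' (pushHom θ hθ φ) (pushHom e he φ') ↔ InducedAlong q φ φ' := by
  have key := W5b_key θ hθ e q q' hq
  constructor
  · rintro ⟨hP1, hφ1, hP'1, H⟩
    have hP : P ≤ S := (Subgroup.map_le_map_iff_of_injective hθ).1 hP1
    have hφ : ∀ x : P, φ x ∈ S := by
      intro x
      have := hφ1 ⟨θ x, Subgroup.mem_map_of_mem θ x.2⟩
      rw [pushHom_apply θ hθ φ x] at this
      exact (Subgroup.mem_map_iff_mem hθ).1 this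
    have hP' : ∀ x : P, q ⟨x, hP x.2⟩ ∈ P' := by
      intro x
      have := hP'1 ⟨θ x, Subgroup.mem_map_of_mem θ x.2⟩
      rw [key x (hP x.2)] at this
      exact (Subgroup.mem_map_iff_mem he).1 this
    refine ⟨hP, hφ, hP', ?_⟩
    intro x
    apply he
    have h1 := H ⟨θ x, Subgroup.mem_map_of_mem θ x.2⟩
    have e1 : (⟨q' ⟨θ x, hP1 (Subgroup.mem_map_of_mem θ x.2)⟩,
        hP'1 ⟨θ x, Subgroup.mem_map_of_mem θ x.2⟩⟩ : ↥(P'.map e)) =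
        ⟨e ((⟨q ⟨x, hP x.2⟩, hP' x⟩ : P') : A), Subgroup.mem_map_of_mem e (hP' x)⟩ :=
      Subtype.ext (key x (hP x.2) _)
    have e2 : (⟨pushHom θ hθ φ ⟨θ x, Subgroup.mem_map_of_mem θ x.2⟩,
        hφ1 ⟨θ x, Subgroup.mem_map_of_mem θ x.2⟩⟩ : ↥(S.map θ)) =
        ⟨θ (φ x), Subgroup.mem_map_of_mem θ (hφ x)⟩ :=
      Subtype.ext (pushHom_apply θ hθ φ x _)
    rw [e1, e2, pushHom_apply e he φ' ⟨q ⟨x, hP x.2⟩, hP' x⟩, key (φ x) (hφ x)] at h1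
    exact h1
  · rintro ⟨hP, hφ, hP', H⟩
    have surj : ∀ y : ↥(P.map θ), ∃ x : P, y = ⟨θ x, Subgroup.mem_map_of_mem θ x.2⟩ := by
      rintro ⟨y, hy⟩
      obtain ⟨x, hx, rfl⟩ := hy
      exact ⟨⟨x, hx⟩, rfl⟩
    have hP1 : P.map θ ≤ S.map θ := Subgroup.map_mono hP
    have hφ1 : ∀ y : ↥(P.map θ), pushHom θ hθ φ y ∈ S.map θ := by
      intro y
      obtain ⟨x, rfl⟩ := surj y
      rw [pushHom_apply θ hθ φ x]
      exact Subgroup.mem_map_of_mem θ (hφ x)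
    have hP'1 : ∀ y : ↥(P.map θ), q' ⟨y, hP1 y.2⟩ ∈ P'.map e := by
      intro y
      obtain ⟨x, rfl⟩ := surj y
      rw [key x (hP x.2)]
      exact Subgroup.mem_map_of_mem e (hP' x)
    refine ⟨hP1, hφ1, hP'1, ?_⟩
    intro y
    obtain ⟨x, rfl⟩ := surj y
    have e1 : (⟨q' ⟨θ x, hP1 (Subgroup.mem_map_of_mem θ x.2)⟩,
        hP'1 ⟨θ x, Subgroup.mem_map_of_mem θ x.2⟩⟩ : ↥(P'.map e)) =
        ⟨e ((⟨q ⟨x, hP x.2⟩, hP' x⟩ : P') : A), Subgroup.mem_map_of_mem e (hP' x)⟩ :=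
      Subtype.ext (key x (hP x.2) _)
    have e2 : (⟨pushHom θ hθ φ ⟨θ x, Subgroup.mem_map_of_mem θ x.2⟩,
        hφ1 ⟨θ x, Subgroup.mem_map_of_mem θ x.2⟩⟩ : ↥(S.map θ)) =
        ⟨θ (φ x), Subgroup.mem_map_of_mem θ (hφ x)⟩ :=
      Subtype.ext (pushHom_apply θ hθ φ x _)
    rw [e1, e2, pushHom_apply e he φ' ⟨q ⟨x, hP x.2⟩, hP' x⟩, key (φ x) (hφ x)]
    exact congrArg e (H x)

end Cfsg.Agent.Lib.Helper80.FT
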