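import Mathlib
import Cfsg.Prelude.Def_FusionComponents
import Cfsg.Agent.Lib.Helper80.FT.Core
import Cfsg.Agent.Lib.Helper80.FT.B2
import Cfsg.Agent.Lib.Helper80.FT.B3
import Cfsg.Agent.Lib.Helper80.FT.C1
import Cfsg.Agent.Lib.Helper80.FT.W5a
import Cfsg.Agent.Lib.Helper80.FT.W5b

set_option autoImplicit false
open Cfsg Cfsg.FusionSystem

namespace Cfsg.Agent.Lib.Helper80.FT

universe u v w
variable {Γ : Type u} [Group Γ] {Ω' : Type v} [Group Ω']

theorem factor_mp {A : Type u} [Group A] {A' : Type v} [Group A'] (θ : Γ →* Ω') (hθ : Function.Injective θ)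
    (e : A →* A') (he : Function.Injective e) {S : Subgroup Γ} (F : FusionSystem S) (Z : Subgroup Γ)
    (q : S →* A) (q' : ↥(S.map θ) →* A')
    (hq : ∀ s : S, e (q s) = q' (S.equivMapOfInjective θ hθ s)) {R : Subgroup A} (E : FusionSystem R)
    (h : (push θ hθ F).IsFactorSystem (Z.map θ) q' (push e he E)) : F.IsFactorSystem Z q E := by
  obtain ⟨h1, h2, h3, h4⟩ := h
  refine ⟨(Subgroup.map_le_map_iff_of_injective hθ).1 h1, ?_, ?_, ?_⟩
  · intro s
    have e1 : q s = 1 ↔ e (q s) = 1 := by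
      constructor
      · intro h; rw [h, map_one]
      · intro h; exact he (by rw [h, map_one])
    rw [e1, hq, h2]
    have e2 : ((S.equivMapOfInjective θ hθ s : ↥(S.map θ)) : Ω') = θ (s : Γ) := by simp
    rw [e2]
    exact Subgroup.mem_map_iff_mem hθ
  · apply Subgroup.map_injective he
    rw [← h3]
    ext y
    constructor
    · rintro ⟨_, ⟨s, rfl⟩, rfl⟩
      exact ⟨_, (hq s).symm⟩
    · rintro ⟨s', rfl⟩
      obtain ⟨s, rfl⟩ := (S.equivMapOfInjective θ hθ).surjective s'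
      exact ⟨q s, ⟨s, rfl⟩, hq s⟩
  · intro P' φ'
    rw [← pushHom_mem_iff e he E φ', h4, Subgroup.map_le_map_iff_of_injective he,
      preimageAlong_map θ hθ e he q q' hq P']
    apply and_congr_right
    intro _
    constructor
    · rintro ⟨ψ, hψ, hind⟩
      obtain ⟨φ, hφ, rfl⟩ := (mem_push_iff θ hθ F ψ).1 hψ
      exact ⟨φ, hφ, (inducedAlong_iff θ hθ e he q q' hq φ φ').1 hind⟩
    · rintro ⟨φ, hφ, hind⟩
      exact ⟨pushHom θ hθ φ, (pushHom_mem_iff θ hθ F φ).2 hφ,
        (inducedAlong_iff θ hθ e he q q' hq φ φ').2 hind⟩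

end Cfsg.Agent.Lib.Helper80.FT
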