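import Mathlib
import Cfsg.Prelude.Def_FusionComponents
import Cfsg.Agent.Lib.Helper80.FT.Core
import Cfsg.Agent.Lib.Helper80.FT.W1

set_option autoImplicit false
open Cfsg Cfsg.FusionSystem

namespace Cfsg.Agent.Lib.Helper80.FT

universe u v w
variable {Γ : Type u} [Group Γ] {Ω' : Type v} [Group Ω']

theorem exists_quotEquiv (θ : Γ →* Ω') (hθ : Function.Injective θ) {S : Subgroup Γ} (F : FusionSystem S) :
    ∃ e : (↥S ⧸ (F.center).subgroupOf S) ≃* (↥(S.map θ) ⧸ ((push θ hθ F).center).subgroupOf (S.map θ)),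
      ∀ s : S, e (QuotientGroup.mk' ((F.center).subgroupOf S) s) =
        QuotientGroup.mk' (((push θ hθ F).center).subgroupOf (S.map θ)) (S.equivMapOfInjective θ hθ s) := by
  have hmap : ((F.center).subgroupOf S).map (S.equivMapOfInjective θ hθ).toMonoidHom =
      ((push θ hθ F).center).subgroupOf (S.map θ) := by
    rw [center_push]
    ext ⟨y, hy⟩
    rw [Subgroup.mem_subgroupOf]
    constructor
    · rintro ⟨s, hs, hsy⟩
      rw [SetLike.mem_coe, Subgroup.mem_subgroupOf] at hs
      have : θ (s : Γ) = y := by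
        have := congrArg Subtype.val hsy
        simpa using this
      exact ⟨s, hs, this⟩
    · rintro ⟨x, hx, hxy⟩
      obtain ⟨s, hs, hsy⟩ := hy
      have hxs : x = s := hθ (hxy.trans hsy.symm)
      subst hxs
      refine ⟨⟨x, hs⟩, ?_, ?_⟩
      · rw [SetLike.mem_coe, Subgroup.mem_subgroupOf]
        exact hx
      · apply Subtype.ext
        simpa using hxy
  refine ⟨QuotientGroup.congr _ _ (S.equivMapOfInjective θ hθ) hmap, ?_⟩
  intro s
  rfl

end Cfsg.Agent.Lib.Helper80.FT
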