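import Mathlib
import Cfsg.Prelude.Def_FusionComponents
import Cfsg.Agent.Lib.Helper80.FT.Core
import Cfsg.Agent.Lib.Helper80.FT.B1
import Cfsg.Agent.Lib.Helper80.FT.C2a
import Cfsg.Agent.Lib.Helper80.FT.C4
import Cfsg.Agent.Lib.Helper80.FT.D8
import Cfsg.Agent.Lib.Helper80.FT.W1
import Cfsg.Agent.Lib.Helper80.FT.W3b
import Cfsg.Agent.Lib.Helper80.FT.W3c
import Cfsg.Agent.Lib.Helper80.FT.W4a
import Cfsg.Agent.Lib.Helper80.FT.W4b
import Cfsg.Agent.Lib.Helper80.FT.W5c
import Cfsg.Agent.Lib.Helper80.FT.W5d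
import Cfsg.Agent.Lib.Helper80.FT.W6

set_option autoImplicit false
open Cfsg Cfsg.FusionSystem

namespace Cfsg.Agent.Lib.Helper80.FT

universe u v w
variable {Γ : Type u} [Group Γ] {Ω' : Type v} [Group Ω']

theorem quasisimple_mp (θ : Γ →* Ω') (hθ : Function.Injective θ) {S : Subgroup Γ} (F : FusionSystem S) (p : ℕ)
    (h : (push θ hθ F).Quasisimple p) : F.Quasisimple p := by
  obtain ⟨hsat, hhyp, hfac⟩ := h
  refine ⟨(sat_iff θ hθ F p).1 hsat, ?_, ?_⟩
  · apply Subgroup.map_injective hθ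
    apply le_antisymm
    · exact (hyperfocal_ge θ hθ F p).trans hhyp.le
    · exact hhyp.ge.trans (hyperfocal_le θ hθ F p)
  · intro E hE
    obtain ⟨e, he⟩ := exists_quotEquiv θ hθ F
    have hinj : Function.Injective e.toMonoidHom := e.injective
    have h1 := factor_mpr θ hθ e.toMonoidHom hinj F F.center
      (QuotientGroup.mk' ((F.center).subgroupOf S))
      (QuotientGroup.mk' (((push θ hθ F).center).subgroupOf (S.map θ))) he E hE
    rw [← center_push θ hθ F] at h1
    have htop : (⊤ : Subgroup (↥S ⧸ (F.center).subgroupOf S)).map e.toMonoidHom = ⊤ := by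
      rw [← MonoidHom.range_eq_map, MonoidHom.range_eq_top]
      exact e.surjective
    obtain ⟨E', hE'⟩ := exists_same_of_eq htop (push e.toMonoidHom hinj E)
    have h2 := hE'.elim (fun _ X => (push θ hθ F).IsFactorSystem (push θ hθ F).center
      (QuotientGroup.mk' (((push θ hθ F).center).subgroupOf (S.map θ))) X) h1
    have h3 := hfac E' h2
    have h4 := hE'.symm.elim (fun _ X => X.IsSimple p) h3
    exact simple_mp e.toMonoidHom hinj E p h4

end Cfsg.Agent.Lib.Helper80.FT
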