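import Mathlib
import Cfsg.Prelude.Def_FusionComponents
import Cfsg.Agent.Lib.Helper80.FT.Core
import Cfsg.Agent.Lib.Helper80.FT.B1
import Cfsg.Agent.Lib.Helper80.FT.C2a
import Cfsg.Agent.Lib.Helper80.FT.C4
import Cfsg.Agent.Lib.Helper80.FT.D8
import Cfsg.Agent.Lib.Helper80.FT.W1
import Cfsg.Agent.Lib.Helper80.FT.W3b
import Cfsg.Agent.Lib.Helper80.FT.W3c
import Cfsg.Agent.Lib.Helper80.FT.W4a
import Cfsg.Agent.Lib.Helper80.FT.W4b
import Cfsg.Agent.Lib.Helper80.FT.W5c
import Cfsg.Agent.Lib.Helper80.FT.W5d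
import Cfsg.Agent.Lib.Helper80.FT.W6

set_option autoImplicit false
open Cfsg Cfsg.FusionSystem

namespace Cfsg.Agent.Lib.Helper80.FT

universe u v w
variable {Γ : Type u} [Group Γ] {Ω' : Type v} [Group Ω']

theorem quasisimple_mpr (θ : Γ →* Ω') (hθ : Function.Injective θ) {S : Subgroup Γ} (F : FusionSystem S) (p : ℕ)
    (h : F.Quasisimple p) : (push θ hθ F).Quasisimple p := by
  obtain ⟨hsat, hhyp, hfac⟩ := h
  refine ⟨(sat_iff θ hθ F p).2 hsat, ?_, ?_⟩
  · have h1 := hyperfocal_le θ hθ F p
    have h2 := hyperfocal_ge θ hθ F p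
    rw [hhyp] at h1 h2
    exact le_antisymm h1 h2
  · intro E' hE'
    obtain ⟨e, he⟩ := exists_quotEquiv θ hθ F
    have hinj : Function.Injective e.toMonoidHom := e.injective
    have hsame : Same (push e.toMonoidHom hinj (pull e.toMonoidHom hinj E')) E' := by
      apply push_pull
      intro x _
      exact ⟨e.symm x, e.apply_symm_apply x⟩
    have h1 : (push θ hθ F).IsFactorSystem (F.center.map θ)
        (QuotientGroup.mk' (((push θ hθ F).center).subgroupOf (S.map θ))) E' :=
      Eq.subst (motive := fun Z => (push θ hθ F).IsFactorSystem Z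
        (QuotientGroup.mk' (((push θ hθ F).center).subgroupOf (S.map θ))) E') (center_push θ hθ F) hE'
    have h2 : (push θ hθ F).IsFactorSystem (F.center.map θ)
        (QuotientGroup.mk' (((push θ hθ F).center).subgroupOf (S.map θ)))
        (push e.toMonoidHom hinj (pull e.toMonoidHom hinj E')) :=
      hsame.symm.elim (fun _ E => (push θ hθ F).IsFactorSystem (F.center.map θ)
        (QuotientGroup.mk' (((push θ hθ F).center).subgroupOf (S.map θ))) E) h1
    have h3 : F.IsFactorSystem F.center (QuotientGroup.mk' ((F.center).subgroupOf S))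
        (pull e.toMonoidHom hinj E') :=
      factor_mp θ hθ e.toMonoidHom hinj F F.center _ _ he _ h2
    obtain ⟨E, hE⟩ := exists_same_of_eq
      (show (⊤ : Subgroup _).comap e.toMonoidHom = ⊤ from Subgroup.comap_top _)
      (pull e.toMonoidHom hinj E')
    have h4 : F.IsFactorSystem F.center (QuotientGroup.mk' ((F.center).subgroupOf S)) E :=
      hE.elim (fun _ E => F.IsFactorSystem F.center (QuotientGroup.mk' ((F.center).subgroupOf S)) E) h3
    have h5 : E.IsSimple p := hfac E h4
    have h6 : (pull e.toMonoidHom hinj E').IsSimple p := hE.symm.elim (fun _ E => E.IsSimple p) h5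
    have h7 := simple_mpr e.toMonoidHom hinj _ p h6
    exact hsame.elim (fun _ E => E.IsSimple p) h7

end Cfsg.Agent.Lib.Helper80.FT
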