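import Mathlib
import Cfsg.Prelude.Def_FusionComponents
import Cfsg.Agent.Lib.Helper80.FT.Core
import Cfsg.Agent.Lib.Helper80.FT.N5

set_option autoImplicit false
open Cfsg Cfsg.FusionSystem

namespace Cfsg.Agent.Lib.Helper80.FT

universe u v w
variable {Γ : Type u} [Group Γ] {Ω' : Type v} [Group Ω']

theorem subnormal_push (θ : Γ →* Ω') (hθ : Function.Injective θ) {T U : Subgroup Γ} {E : FusionSystem T}
    {D : FusionSystem U} {p : ℕ} (h : E.IsSubnormalIn D p) :
    (push θ hθ E).IsSubnormalIn (push θ hθ D) p := by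
  induction h with
  | refl F p => exact IsSubnormalIn.refl _ _
  | step _ hn ih => exact IsSubnormalIn.step ih ((normalIn_iff θ hθ _ _ _).2 hn)

end Cfsg.Agent.Lib.Helper80.FT
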