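import Mathlib
import Cfsg.Prelude.Def_FusionComponents
import Cfsg.Agent.Lib.Helper80.FT.Core
import Cfsg.Agent.Lib.Helper80.FT.B1
import Cfsg.Agent.Lib.Helper80.FT.B3
import Cfsg.Agent.Lib.Helper80.FT.C2a
import Cfsg.Agent.Lib.Helper80.FT.N5

set_option autoImplicit false
open Cfsg Cfsg.FusionSystem

namespace Cfsg.Agent.Lib.Helper80.FT

universe u v w
variable {Γ : Type u} [Group Γ] {Ω' : Type v} [Group Ω']

theorem subnormal_pull (θ : Γ →* Ω') (hθ : Function.Injective θ) {T' U' : Subgroup Ω'} {E' : FusionSystem T'}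
    {D' : FusionSystem U'} {p : ℕ} (h : E'.IsSubnormalIn D' p) :
    ∀ {U : Subgroup Γ} (D : FusionSystem U), Same (push θ hθ D) D' →
      ∃ (T : Subgroup Γ) (E : FusionSystem T), Same (push θ hθ E) E' ∧ E.IsSubnormalIn D p := by
  induction h with
  | refl F p =>
    intro U D hD
    exact ⟨U, D, hD, IsSubnormalIn.refl D p⟩
  | @step U S E D F p hsub hnorm ih =>
    intro U0 F0 hF0
    have hUS : U ≤ S := le_of_subsystem hnorm.1.2.2.1
    have hS : U0.map θ = S := hF0.1
    have hUr : U ≤ θ.range := by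
      refine hUS.trans ?_
      rw [← hS]
      exact Subgroup.map_le_range θ U0
    have hpp := push_pull θ hθ D hUr
    have h1 : (push θ hθ (pull θ hθ D)).IsNormalIn (push θ hθ F0) p := by
      have h0 := hpp.symm.elim (fun _ X => X.IsNormalIn F p) hnorm
      exact hF0.symm.elim (fun _ X => (push θ hθ (pull θ hθ D)).IsNormalIn X p) h0
    have h2 := (normalIn_iff θ hθ _ _ p).1 h1
    obtain ⟨T0, E0, hE0, hsn⟩ := ih (pull θ hθ D) hpp
    exact ⟨T0, E0, hE0, IsSubnormalIn.step hsn h2⟩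

theorem le_of_subnormal {Ω : Type u} [Group Ω] {T S : Subgroup Ω} {E : FusionSystem T} {F : FusionSystem S} {p : ℕ}
    (h : E.IsSubnormalIn F p) : T ≤ S := by
  induction h with
  | refl F p => exact le_rfl
  | step _ hn ih => exact ih.trans (le_of_subsystem hn.1.2.2.1)

end Cfsg.Agent.Lib.Helper80.FT
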