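import Mathlib
import Cfsg.Prelude.Def_FusionComponents
import Cfsg.Agent.Lib.Helper80.FT.Core
import Cfsg.Agent.Lib.Helper80.FT.B1

set_option autoImplicit false
open Cfsg Cfsg.FusionSystem

namespace Cfsg.Agent.Lib.Helper80.FT

universe u v w
variable {Γ : Type u} [Group Γ] {Ω' : Type v} [Group Ω']

theorem pull_same (θ : Γ →* Ω') (hθ : Function.Injective θ) {T' T₁' : Subgroup Ω'} {E' : FusionSystem T'}
    {E₁' : FusionSystem T₁'} (h : Same E' E₁') : Same (pull θ hθ E') (pull θ hθ E₁') := by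
  obtain ⟨hT, hH⟩ := h
  subst hT
  refine ⟨rfl, fun P => ?_⟩
  ext φ
  show pushHom θ hθ φ ∈ E'.Hom (P.map θ) ↔ pushHom θ hθ φ ∈ E₁'.Hom (P.map θ)
  rw [hH]

end Cfsg.Agent.Lib.Helper80.FT
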