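import Mathlib
import Cfsg.Prelude.Def_FusionComponents
import Cfsg.Agent.Lib.Helper80.FT.A0
import Cfsg.Agent.Lib.Helper80.FT.B1
import Cfsg.Agent.Lib.Helper80.FT.B3
import Cfsg.Agent.Lib.Helper80.FT.C2a
import Cfsg.Agent.Lib.Helper80.FT.C2b
import Cfsg.Agent.Lib.Helper80.FT.W7a
import Cfsg.Agent.Lib.Helper80.FT.W7b
import Cfsg.Agent.Lib.Helper80.FT.W8a
import Cfsg.Agent.Lib.Helper80.FT.W8b
import Cfsg.Agent.Lib.Helper80.FT.W9

set_option autoImplicit false
open Cfsg Cfsg.FusionSystem

namespace Cfsg.Agent.Lib.Helper80.FT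

universe u v w
variable {Γ : Type u} [Group Γ] {Ω' : Type v} [Group Ω']

theorem twist_component {Ω : Type u} [Group Ω] {S : Subgroup Ω} (F : FusionSystem S) (α : ↥S ≃* ↥S)
    (hF : Same (twist α F) F) {U : Subgroup Ω} (C : FusionSystem U) (p : ℕ) (hC : C.IsComponentIn F p) :
    (twist α C).IsComponentIn F p := by
  have hi : Function.Injective S.subtype := S.subtype_injective
  have hrange : S ≤ S.subtype.range := le_of_eq (Subgroup.range_subtype S).symm
  constructor
  · have hFi : Same (push S.subtype hi (pull S.subtype hi F)) F := push_pull S.subtype hi F hrange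
    obtain ⟨T0, C0, hs0, hsn0⟩ := subnormal_pull S.subtype hi hC.1 (pull S.subtype hi F) hFi
    have hs1 : Same C0 (pull S.subtype hi C) :=
      (pull_push S.subtype hi C0).symm.trans (pull_same S.subtype hi hs0)
    have hsn1 : (pull S.subtype hi C).IsSubnormalIn (pull S.subtype hi F) p :=
      hs1.elim (fun T E => E.IsSubnormalIn (pull S.subtype hi F) p) hsn0
    have hsn2 : (twist α C).IsSubnormalIn (twist α F) p :=
      subnormal_push (S.subtype.comp α.toMonoidHom) (kap_inj α) hsn1
    exact hF.elim (fun T E => (twist α C).IsSubnormalIn E p) hsn2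
  · have hUS : U ≤ S := le_of_subnormal hC.1
    have hs : Same (push S.subtype hi (pull S.subtype hi C)) C :=
      push_pull S.subtype hi C (hUS.trans hrange)
    have hq1 : (push S.subtype hi (pull S.subtype hi C)).Quasisimple p :=
      hs.symm.elim (fun T E => E.Quasisimple p) hC.2
    have hq2 := quasisimple_mp S.subtype hi _ p hq1
    exact quasisimple_mpr (S.subtype.comp α.toMonoidHom) (kap_inj α) _ p hq2

end Cfsg.Agent.Lib.Helper80.FT
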