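import Mathlib
import Cfsg.Prelude.Def_FusionComponents
import Cfsg.Agent.Lib.Helper80.FT.Core
import Cfsg.Agent.Lib.Helper80.FT.N0
import Cfsg.Agent.Lib.Helper80.FT.N3
import Cfsg.Agent.Lib.Helper80.FT.B2
import Cfsg.Agent.Lib.Helper80.FT.B3
import Cfsg.Agent.Lib.Helper80.FT.C1
import Cfsg.Agent.Lib.Helper80.FT.D2a
import Cfsg.Agent.Lib.Helper80.FT.D2

set_option autoImplicit false
open Cfsg Cfsg.FusionSystem

namespace Cfsg.Agent.Lib.Helper80.FT

universe u v w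
variable {Γ : Type u} [Group Γ] {Ω' : Type v} [Group Ω']

theorem N4b_aux {Ω : Type u} [Group Ω] {T S : Subgroup Ω} (E : FusionSystem T) (F : FusionSystem S) :
    ExtClause E F ↔ ∀ (R : Subgroup Ω) (_ : R = T ⊔ centralizerIn S T) (hle : T ≤ R),
      ∀ α ∈ E.autGroup T, ∃ β ∈ F.autGroup R,
        (∀ x : T, ((β (Subgroup.inclusion hle x) : R) : Ω) = ((α x : T) : Ω)) ∧
        ∀ c : R, (c : Ω) ∈ centralizerIn S T →
          (c : Ω)⁻¹ * ((β c : R) : Ω) ∈ T ⊓ Subgroup.centralizer (T : Set Ω) := by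
  constructor
  · intro h R hR hle
    subst hR
    exact h
  · intro h
    exact h _ rfl le_sup_left

theorem extClause_mpr (θ : Γ →* Ω') (hθ : Function.Injective θ) {T S : Subgroup Γ} (E : FusionSystem T)
    (F : FusionSystem S) (h : ExtClause E F) : ExtClause (push θ hθ E) (push θ hθ F) := by
  rw [N4b_aux]
  intro R' hR' hle α' hα'
  rw [sup_centralizerIn_map θ hθ] at hR'
  subst hR'
  rw [autGroup_push, Subgroup.mem_map] at hα'
  obtain ⟨α, hα, rfl⟩ := hα'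
  obtain ⟨β, hβ, h1, h2⟩ := h α hα
  refine ⟨autEquiv θ hθ _ β, (mem_autGroup_push_iff θ hθ F _ β).2 hβ, ?_, ?_⟩
  · rintro ⟨x', hx'⟩
    obtain ⟨x, hx, rfl⟩ := Subgroup.mem_map.1 hx'
    have e1 := autEquiv_apply θ hθ (T ⊔ centralizerIn S T) β (Subgroup.inclusion le_sup_left ⟨x, hx⟩)
      (hle hx')
    have e2 := autEquiv_apply θ hθ T α ⟨x, hx⟩ hx'
    refine Eq.trans e1 (Eq.trans ?_ e2.symm)
    rw [h1 ⟨x, hx⟩]
  · rintro ⟨c', hc'⟩ hcc
    obtain ⟨c, hc, rfl⟩ := Subgroup.mem_map.1 hc'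
    have hcc' : θ c ∈ centralizerIn (S.map θ) (T.map θ) := hcc
    rw [centralizerIn_map θ hθ, Subgroup.mem_map] at hcc'
    obtain ⟨c0, hc0, hc0'⟩ := hcc'
    have : c0 = c := hθ hc0'
    subst this
    have e1 := autEquiv_apply θ hθ (T ⊔ centralizerIn S T) β ⟨c0, hc⟩ hc'
    have h3 := h2 ⟨c0, hc⟩ hc0
    rw [← inf_centralizer_map θ hθ, map_mul, map_inv] at h3
    show (θ c0)⁻¹ * _ ∈ _
    rw [e1]
    exact h3

end Cfsg.Agent.Lib.Helper80.FT
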