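import Mathlib
import Cfsg.Prelude.Def_FusionComponents
import Cfsg.Agent.Lib.Helper80.FT.Core
import Cfsg.Agent.Lib.Helper80.FT.B2
import Cfsg.Agent.Lib.Helper80.FT.B3
import Cfsg.Agent.Lib.Helper80.FT.C1
import Cfsg.Agent.Lib.Helper80.FT.W5a
import Cfsg.Agent.Lib.Helper80.FT.W5b

set_option autoImplicit false
open Cfsg Cfsg.FusionSystem

namespace Cfsg.Agent.Lib.Helper80.FT

universe u v w
variable {Γ : Type u} [Group Γ] {Ω' : Type v} [Group Ω']

theorem factor_mpr {A : Type u} [Group A] {A' : Type v} [Group A'] (θ : Γ →* Ω') (hθ : Function.Injective θ)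
    (e : A →* A') (he : Function.Injective e) {S : Subgroup Γ} (F : FusionSystem S) (Z : Subgroup Γ)
    (q : S →* A) (q' : ↥(S.map θ) →* A')
    (hq : ∀ s : S, e (q s) = q' (S.equivMapOfInjective θ hθ s)) {R : Subgroup A} (E : FusionSystem R)
    (h : F.IsFactorSystem Z q E) : (push θ hθ F).IsFactorSystem (Z.map θ) q' (push e he E) := by
  obtain ⟨hZ, hker, hrange, hHom⟩ := h
  have hsurj : ∀ t : ↥(S.map θ), ∃ s : S, S.equivMapOfInjective θ hθ s = t :=
    (S.equivMapOfInjective θ hθ).surjective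
  have hq'range : ∀ t : ↥(S.map θ), q' t ∈ e.range := by
    intro t
    obtain ⟨s, rfl⟩ := hsurj t
    exact ⟨q s, hq s⟩
  refine ⟨Subgroup.map_mono hZ, ?_, ?_, ?_⟩
  · intro t
    obtain ⟨s, rfl⟩ := hsurj t
    rw [← hq s]
    constructor
    · intro h1
      have h2 : q s = 1 := he (by rw [h1, map_one])
      have h3 := (hker s).1 h2
      rw [Subgroup.coe_equivMapOfInjective_apply]
      exact Subgroup.mem_map_of_mem θ h3
    · intro h1
      rw [Subgroup.coe_equivMapOfInjective_apply] at h1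
      obtain ⟨z, hz, hzs⟩ := h1
      have h2 : z = s := hθ hzs
      have h3 : q s = 1 := (hker s).2 (h2 ▸ hz)
      rw [h3, map_one]
  · rw [← hrange]
    ext y
    constructor
    · rintro ⟨t, rfl⟩
      obtain ⟨s, rfl⟩ := hsurj t
      rw [← hq s]
      exact Subgroup.mem_map_of_mem e ⟨s, rfl⟩
    · rintro ⟨_, ⟨s, rfl⟩, rfl⟩
      exact ⟨_, (hq s).symm⟩
  · intro P'' φ''
    constructor
    · intro hmem
      have hle := ((push e he E).le_of_mem hmem).1
      refine ⟨hle, ?_⟩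
      obtain ⟨P', rfl⟩ := exists_map_of_mem_push e he E hmem
      obtain ⟨φ', hφ', rfl⟩ := (mem_push_iff e he E φ'').1 hmem
      obtain ⟨_, φ, hφ, hind⟩ := (hHom P' φ').1 hφ'
      have hpre := preimageAlong_map θ hθ e he q q' hq P'
      rw [hpre]
      exact ⟨pushHom θ hθ φ, (pushHom_mem_iff θ hθ F φ).2 hφ,
        (inducedAlong_iff θ hθ e he q q' hq φ φ').2 hind⟩
    · rintro ⟨hle, hex⟩
      obtain ⟨P', rfl⟩ := exists_map_eq e (hle.trans (Subgroup.map_le_range e R))
      have hpre := preimageAlong_map θ hθ e he q q' hq P'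
      rw [hpre] at hex
      obtain ⟨ψ, hψ, hind⟩ := hex
      obtain ⟨φ, hφ, rfl⟩ := (mem_push_iff θ hθ F ψ).1 hψ
      have hPR : P' ≤ R := (Subgroup.map_le_map_iff_of_injective he).1 hle
      have hval : ∀ y, φ'' y ∈ e.range := by
        rintro ⟨y, hy⟩
        obtain ⟨hP, hφS, hP', hcomm⟩ := hind
        obtain ⟨a, ha, rfl⟩ := id hy
        have haR : a ∈ q.range := hrange ▸ hPR ha
        obtain ⟨s, rfl⟩ := haR
        have hs : (s : Γ) ∈ preimageAlong q P' := ⟨s, ha, rfl⟩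
        have hx : θ s ∈ (preimageAlong q P').map θ := Subgroup.mem_map_of_mem θ hs
        have h1 := hcomm ⟨θ s, hx⟩
        have h2 : (⟨θ s, hP hx⟩ : ↥(S.map θ)) = S.equivMapOfInjective θ hθ s :=
          Subtype.ext (by simp)
        have h3 : (⟨e (q s), hy⟩ : ↥(P'.map e)) = ⟨q' ⟨θ s, hP hx⟩, hP' ⟨θ s, hx⟩⟩ :=
          Subtype.ext (by
            show e (q s) = q' ⟨θ s, hP hx⟩
            rw [h2, hq])
        rw [h3, h1]
        exact hq'range _
      obtain ⟨φ', rfl⟩ := exists_pushHom_eq e he φ'' hval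
      rw [pushHom_mem_iff]
      exact (hHom P' φ').2 ⟨hPR, φ, hφ, (inducedAlong_iff θ hθ e he q q' hq φ φ').1 hind⟩

end Cfsg.Agent.Lib.Helper80.FT
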